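import Cfsg.Agent.H637.A7TwelveTwo
import Cfsg.Agent.H637.A7NineMain

/-!
# `3.A₇` in dimension twelve: impossible (helper637)
-/

set_option autoImplicit false
set_option linter.unusedSectionVars false
set_option linter.unusedSimpArgs false

namespace Cfsg.Agent.H637.Three

open Matrix

section two

variable {F W : Type*} [Field F] [AddCommGroup W] [Module F W] {ω : F} {x d₀ d₁ d₂ t : Module.End F W}

/-- the same with `D2 = T D1 T`, `D0 = D2 D1` -/
theorem two_fin' (h2 : (2 : F) = 0) (hω : ω ^ 2 + ω + 1 = 0) {r s c : F}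
    {X T D0 D1 D2 Y0 Y1 Y2 : Matrix (Fin 4) (Fin 4) F}
    (hX : X = !![1, 1, 0, 0; 0, 1, 1, 0; 0, 0, 1, 1; 0, 0, 0, 1])
    (hT : T = !![1, 0, 1, 0; 0, 1, 0, 1; 0, 0, 1, 0; 0, 0, 0, 1])
    (hD1 : D1 = !![1, 0, 0, 0;
      0, 1, s, 0;
      0, 0, 1, 0;
      c, 0, r, 1])
    (hD2 : D2 = T * (D1 * T)) (hD0 : D0 = D2 * D1)
    (hY0 : Y0 = X * (D0 + D1 + D2) * (X * T)) (hY1 : Y1 = X * (D0 + ω ^ 2 • D1 + ω • D2) * (X * T))
    (hY2 : Y2 = X * (D0 + ω • D1 + ω ^ 2 • D2) * (X * T))
    (E : D0 * Y0 * D0 = T * (Y0 * D0 * Y0 + Y2 * D1 * Y1 + Y1 * D2 * Y2)) : c = 0 := by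
  have hD2' : D2 = !![1, 0, 0, 0;
      c, 1, r + s + c, 0;
      0, 0, 1, 0;
      c, 0, r + c, 1] := by
    rw [hD2, hT, hD1]
    ext i j
    fin_cases i <;> fin_cases j <;> simp [Matrix.mul_apply, Fin.sum_univ_four]
    all_goals first | ring1 | linear_combination h2
  have hD0' : D0 = !![1, 0, 0, 0;
      c, 1, r + c, 0;
      0, 0, 1, 0;
      0, 0, c, 1] := by
    rw [hD0, hD2', hD1]
    ext i j
    fin_cases i <;> fin_cases j <;> simp [Matrix.mul_apply, Fin.sum_univ_four]
    all_goals first | ring1 | linear_combination c * h2 | linear_combination r * h2 | linear_combination s * h2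
  exact two_fin (m := 0) (n := 0) (r := r) (s := s) h2 hω hX hT (by rw [hD0']; simp) (by rw [hD1]; simp)
    (by rw [hD2']; simp) hY0 hY1 hY2 E

/-- the case `N P N = 0` -/
theorem Dat.two_aux [FiniteDimensional F W] (D : Dat ω x d₀ d₁ d₂ t) (hW : Module.finrank F W = 4)
    (h2 : (2 : F) = 0) (hNPN : ∀ w, (t + 1) ((d₁ + 1) ((t + 1) w)) = 0) : False := by
  have h0 := D.ne_one (by omega)
  have add_self : ∀ w : W, w + w = 0 := fun w => by rw [← two_smul F w, h2, zero_smul]
  have eq_of_add : ∀ u v : W, u + v = 0 → u = v := fun u v h => by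
    have h1 : u = u + (v + v) := by rw [add_self, add_zero]
    rw [h1, ← add_assoc, h, zero_add]
  obtain ⟨N, hN⟩ : ∃ N, N = t + 1 := ⟨_, rfl⟩
  obtain ⟨P, hP⟩ : ∃ P, P = d₁ + 1 := ⟨_, rfl⟩
  have Na : ∀ w, N w = t w + w := fun w => by rw [hN]; rfl
  have Pa : ∀ w, P w = d₁ w + w := fun w => by rw [hP]; rfl
  rw [← hN, ← hP] at hNPN
  have ta : ∀ w, t w = w + N w := by
    intro w
    rw [Na, add_comm (t w), ← add_assoc, add_self, zero_add]
  have da : ∀ w, d₁ w = w + P w := by
    intro w
    rw [Pa, add_comm (d₁ w), ← add_assoc, add_self, zero_add]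
  have NN : ∀ w, N (N w) = 0 := by
    intro w
    rw [Na, Na, map_add, mul_ap D.tt, Module.End.one_apply]
    have : w + t w + (t w + w) = (w + w) + (t w + t w) := by abel
    rw [this, add_self, add_self, add_zero]
  have PP : ∀ w, P (P w) = 0 := by
    intro w
    rw [Pa, Pa, map_add, mul_ap D.h11, Module.End.one_apply]
    have : w + d₁ w + (d₁ w + w) = (w + w) + (d₁ w + d₁ w) := by abel
    rw [this, add_self, add_self, add_zero]
  have hN0 : ∃ w, N w ≠ 0 := by
    by_contra hcon
    push Not at hcon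
    apply h0
    have ht : t = 1 := by
      apply LinearMap.ext
      intro w
      rw [ta, hcon, add_zero]; rfl
    have e : d₂ = d₁ := by
      have := D.t2
      rwa [ht, one_mul, mul_one] at this
    rw [← D.h21, e, D.h11]
  -- `y`
  obtain ⟨y, hy⟩ : ∃ y, y = x + 1 := ⟨_, rfl⟩
  have ya : ∀ w, y w = x w + w := fun w => by rw [hy]; rfl
  have xa : ∀ w, x w = w + y w := by
    intro w
    rw [ya, add_comm (x w), ← add_assoc, add_self, zero_add]
  have xx : ∀ w, x (x w) = t w := by
    intro w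
    have h1 : (3 : F) • x (x w) = t w := (congrArg (fun T : Module.End F W => T w) D.ht).symm
    rw [show (3 : F) = 1 + 2 by norm_num, h2, add_zero, one_smul] at h1
    exact h1
  have yy : ∀ w, y (y w) = N w := by
    intro w
    rw [ya, ya, map_add, xx, Na]
    have : t w + x w + (x w + w) = t w + w + (x w + x w) := by abel
    rw [this, add_self, add_zero]
  have yN : ∀ w, y (N w) = N (y w) := by
    intro w
    rw [← yy, ← yy]
  have xN : ∀ w, x (N w) = N (x w) := by
    intro w
    rw [xa, xa, yN, map_add]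
  have d0N : ∀ w, d₀ (N w) = N (d₀ w) := by
    intro w
    rw [Na, Na, map_add]
    congr 1
    exact congrArg (fun T : Module.End F W => T w) D.t0.symm
  -- dimensions
  have hrn := LinearMap.finrank_range_add_finrank_ker N
  rw [hW] at hrn
  have hle : LinearMap.range N ≤ LinearMap.ker N := by
    rintro _ ⟨w, rfl⟩
    rw [LinearMap.mem_ker]
    exact NN w
  have hle' := Submodule.finrank_mono hle
  obtain ⟨e', he'⟩ := hN0
  have hpos : Module.finrank F (LinearMap.range N) ≠ 0 := by
    intro h1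
    have h3 := Submodule.finrank_eq_zero.1 h1
    have h4 : N e' ∈ LinearMap.range N := ⟨e', rfl⟩
    rw [h3, Submodule.mem_bot] at h4
    exact he' h4
  have hcase : Module.finrank F (LinearMap.range N) = 1 ∨ Module.finrank F (LinearMap.range N) = 2 := by omega
  rcases hcase with hr | hr
  · -- rank one
    obtain ⟨e, he⟩ : ∃ e, e = N e' := ⟨_, rfl⟩
    rw [← he] at he'
    have line : ∀ w, ∃ c : F, N w = c • e := by
      intro w
      have h6 : (⟨e, e', he.symm⟩ : LinearMap.range N) ≠ 0 := fun h => he' (congrArg Subtype.val h)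
      obtain ⟨c, hc⟩ := (finrank_eq_one_iff_of_nonzero' _ h6).1 hr ⟨N w, w, rfl⟩
      exact ⟨c, (congrArg Subtype.val hc).symm⟩
    have Ne : N e = 0 := by rw [he, NN]
    have NPe : N (P e) = 0 := by rw [he]; exact hNPN e'
    obtain ⟨g, hg⟩ : ∃ g, g = P e := ⟨_, rfl⟩
    rw [← hg] at NPe
    have Pg : P g = 0 := by rw [hg, PP]
    have te : t e = e := by rw [ta, Ne, add_zero]
    have tg : t g = g := by rw [ta, NPe, add_zero]
    have d1e : d₁ e = e + g := by rw [da, hg]
    have d1g : d₁ g = g := by rw [da, Pg, add_zero]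
    have d2 : ∀ w, t w = w → d₂ w = t (d₁ w) := by
      intro w hw
      have h3 : t (d₁ w) = d₂ (t w) := congrArg (fun T : Module.End F W => T w) D.t1
      rw [h3, hw]
    have d2e : d₂ e = e + g := by rw [d2 e te, d1e, map_add, te, tg]
    have d2g : d₂ g = g := by rw [d2 g tg, d1g, tg]
    have d0e : d₀ e = e := by rw [← mul_ap D.h21, d1e, map_add, d2e, d2g, add_assoc, add_self, add_zero]
    have d0g : d₀ g = g := by rw [← mul_ap D.h21, d1g, d2g]
    have ye : y e = 0 := by
      obtain ⟨c, hc⟩ := line (y e')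
      have h3 : y e = c • e := by rw [← hc, ← yN, he]
      have h4 : y (y e) = 0 := by rw [yy, Ne]
      rw [h3, map_smul, h3, smul_smul] at h4
      rcases mul_eq_zero.1 ((smul_eq_zero.1 h4).resolve_right he') with h5 | h5 <;> rw [h3, h5, zero_smul]
    have xe : x e = e := by rw [xa, ye, add_zero]
    -- `⟨e, g⟩` is not invariant
    have small : Submodule.span F (Set.range ![e, g]) ≠ ⊤ := by
      intro h3
      have h4 := finrank_range_le_card (R := F) ![e, g]
      rw [Fintype.card_fin, Set.finrank, h3, finrank_top] at h4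
      omega
    have me : e ∈ Submodule.span F (Set.range ![e, g]) := Submodule.subset_span ⟨0, rfl⟩
    have mg : g ∈ Submodule.span F (Set.range ![e, g]) := Submodule.subset_span ⟨1, rfl⟩
    have hyg : x g ∉ Submodule.span F (Set.range ![e, g]) := by
      intro hxg
      rcases D.irr _ (span_inv (v := ![e, g]) x fun i => by
          fin_cases i
          · show x e ∈ _
            rw [xe]; exact me
          · exact hxg)
        (span_inv (v := ![e, g]) d₀ fun i => by
          fin_cases i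
          · show d₀ e ∈ _
            rw [d0e]; exact me
          · show d₀ g ∈ _
            rw [d0g]; exact mg)
        (span_inv (v := ![e, g]) d₁ fun i => by
          fin_cases i
          · show d₁ e ∈ _
            rw [d1e]; exact add_mem me mg
          · show d₁ g ∈ _
            rw [d1g]; exact mg)
        (span_inv (v := ![e, g]) d₂ fun i => by
          fin_cases i
          · show d₂ e ∈ _
            rw [d2e]; exact add_mem me mg
          · show d₂ g ∈ _
            rw [d2g]; exact mg) with h3 | h3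
      · rw [h3, Submodule.mem_bot] at me
        exact he' me
      · exact small h3
    have hyg' : y g ∉ Submodule.span F (Set.range ![e, g]) := by
      intro h3
      apply hyg
      rw [xa]
      exact add_mem mg h3
    have yyg : y (y g) = 0 := by rw [yy, NPe]
    -- `g ∉ ⟨e⟩`
    have hge : ∀ c : F, g ≠ c • e := by
      intro c hc
      apply hyg'
      rw [hc, map_smul, ye, smul_zero]
      exact zero_mem _
    have li2 : LinearIndependent F ![e, g] := by
      rw [LinearIndependent.pair_iff]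
      intro p q hpq
      by_cases hq : q = 0
      · rw [hq, zero_smul, add_zero] at hpq
        exact ⟨(smul_eq_zero.1 hpq).resolve_right he', hq⟩
      · exfalso
        apply hge (-(q⁻¹ * p))
        have h3 : q⁻¹ • (p • e + q • g) = (q⁻¹ * p) • e + (q⁻¹ * q) • g := by module
        rw [hpq, smul_zero, inv_mul_cancel₀ hq, one_smul] at h3
        rw [neg_smul]
        exact (neg_eq_of_add_eq_zero_right h3.symm).symm
    have li3 : LinearIndependent F ![y g, e, g] := linearIndependent_finCons.2 ⟨li2, hyg'⟩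
    -- `ker N` is spanned by them
    have hker : Module.finrank F (LinearMap.ker N) = 3 := by omega
    have hspan : Submodule.span F (Set.range ![y g, e, g]) = LinearMap.ker N := by
      apply Submodule.eq_of_le_of_finrank_eq
      · apply Submodule.span_le.2
        rintro _ ⟨i, rfl⟩
        fin_cases i
        · show N (y g) = 0
          rw [← yN, NPe, map_zero]
        · exact Ne
        · exact NPe
      · rw [finrank_span_eq_card li3, Fintype.card_fin, hker]
    have hye' : y e' ∈ LinearMap.ker N := by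
      rw [LinearMap.mem_ker, ← yN, ← he, ye]
    rw [← hspan, Submodule.mem_span_range_iff_exists_fun] at hye'
    obtain ⟨c, hc⟩ := hye'
    rw [Fin.sum_univ_three] at hc
    have hc' : c 0 • y g + c 1 • e + c 2 • g = y e' := hc
    have h3 : y (y e') = e := by rw [yy, ← he]
    rw [← hc', map_add, map_add, map_smul, map_smul, map_smul, yyg, ye, smul_zero, smul_zero, zero_add, zero_add] at h3
    by_cases h5 : c 2 = 0
    · rw [h5, zero_smul] at h3
      exact he' h3.symm
    · apply hyg'
      have h6 : y g = (c 2)⁻¹ • e := by rw [← h3, smul_smul, inv_mul_cancel₀ h5, one_smul]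
      rw [h6]
      exact Submodule.smul_mem _ _ me
  · -- rank two
    have heq : LinearMap.range N = LinearMap.ker N := Submodule.eq_of_le_of_finrank_eq hle (by omega)
    have kx : ∀ u ∈ LinearMap.ker N, x u ∈ LinearMap.ker N := by
      intro u hu
      rw [LinearMap.mem_ker] at hu ⊢
      rw [← xN, hu, map_zero]
    have k0 : ∀ u ∈ LinearMap.ker N, d₀ u ∈ LinearMap.ker N := by
      intro u hu
      rw [LinearMap.mem_ker] at hu ⊢
      rw [← d0N, hu, map_zero]
    have k1 : ∀ u ∈ LinearMap.ker N, d₁ u ∈ LinearMap.ker N := by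
      intro u hu
      have hu' := hu
      rw [← heq] at hu'
      obtain ⟨w, rfl⟩ := hu'
      rw [LinearMap.mem_ker, da, map_add, NN, zero_add]
      exact hNPN w
    have k2 : ∀ u ∈ LinearMap.ker N, d₂ u ∈ LinearMap.ker N := by
      intro u hu
      rw [← mul_ap D.h10]
      exact k1 _ (k0 u hu)
    rcases D.irr _ kx k0 k1 k2 with h3 | h3
    · rw [h3, finrank_bot] at hrn
      omega
    · rw [h3, finrank_top, hW] at hrn
      omega

/-- **Dimension four is impossible in characteristic two.** -/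
theorem Dat.four_two [FiniteDimensional F W] (D : Dat ω x d₀ d₁ d₂ t) (hW : Module.finrank F W = 4)
    (h2 : (2 : F) = 0) : False := by
  have add_self : ∀ w : W, w + w = 0 := fun w => by rw [← two_smul F w, h2, zero_smul]
  obtain ⟨N, hN⟩ : ∃ N, N = t + 1 := ⟨_, rfl⟩
  obtain ⟨P, hP⟩ : ∃ P, P = d₁ + 1 := ⟨_, rfl⟩
  have Na : ∀ w, N w = t w + w := fun w => by rw [hN]; rfl
  have Pa : ∀ w, P w = d₁ w + w := fun w => by rw [hP]; rfl
  have ta : ∀ w, t w = w + N w := by
    intro w
    rw [Na, add_comm (t w), ← add_assoc, add_self, zero_add]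
  have da : ∀ w, d₁ w = w + P w := by
    intro w
    rw [Pa, add_comm (d₁ w), ← add_assoc, add_self, zero_add]
  have NN : ∀ w, N (N w) = 0 := by
    intro w
    rw [Na, Na, map_add, mul_ap D.tt, Module.End.one_apply]
    have : w + t w + (t w + w) = (w + w) + (t w + t w) := by abel
    rw [this, add_self, add_self, add_zero]
  have PP : ∀ w, P (P w) = 0 := by
    intro w
    rw [Pa, Pa, map_add, mul_ap D.h11, Module.End.one_apply]
    have : w + d₁ w + (d₁ w + w) = (w + w) + (d₁ w + d₁ w) := by abel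
    rw [this, add_self, add_self, add_zero]
  obtain ⟨y, hy⟩ : ∃ y, y = x + 1 := ⟨_, rfl⟩
  have ya : ∀ w, y w = x w + w := fun w => by rw [hy]; rfl
  have xa : ∀ w, x w = w + y w := by
    intro w
    rw [ya, add_comm (x w), ← add_assoc, add_self, zero_add]
  have xx : ∀ w, x (x w) = t w := by
    intro w
    have h1 : (3 : F) • x (x w) = t w := (congrArg (fun T : Module.End F W => T w) D.ht).symm
    rw [show (3 : F) = 1 + 2 by norm_num, h2, add_zero, one_smul] at h1
    exact h1
  have yy : ∀ w, y (y w) = N w := by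
    intro w
    rw [ya, ya, map_add, xx, Na]
    have : t w + x w + (x w + w) = t w + w + (x w + x w) := by abel
    rw [this, add_self, add_zero]
  have yN : ∀ w, y (N w) = N (y w) := by
    intro w
    rw [← yy, ← yy]
  have d2t : ∀ w, d₂ w = t (d₁ (t w)) := by
    intro w
    have h3 : t (d₁ (t w)) = d₂ (t (t w)) := congrArg (fun T : Module.End F W => T (t w)) D.t1
    rw [h3, mul_ap D.tt]; rfl
  -- `P N P N = N P N P`
  have star : ∀ w, P (N (P (N w))) = N (P (N (P w))) := by
    intro w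
    have h3 : d₁ (d₂ w) = d₂ (d₁ w) := by rw [mul_ap D.h12, mul_ap D.h21]
    have e1 : d₂ w = w + P w + N (P w) + P (N w) + N (P (N w)) := by
      rw [d2t, ta (d₁ (t w)), da, ta w]
      simp only [map_add, NN]
      have : w + N w + (P w + P (N w)) + (N w + 0 + (N (P w) + N (P (N w)))) =
        (w + P w + N (P w) + P (N w) + N (P (N w))) + (N w + N w) := by abel
      rw [this, add_self, add_zero]
    have e2 : ∀ u, d₂ u = u + P u + N (P u) + P (N u) + N (P (N u)) := by
      intro u
      rw [d2t, ta (d₁ (t u)), da, ta u]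
      simp only [map_add, NN]
      have : u + N u + (P u + P (N u)) + (N u + 0 + (N (P u) + N (P (N u)))) =
        (u + P u + N (P u) + P (N u) + N (P (N u))) + (N u + N u) := by abel
      rw [this, add_self, add_zero]
    rw [e2 w, e2 (d₁ w), da (w + _ + _ + _ + _), da w] at h3
    simp only [map_add, PP, map_zero, add_zero, zero_add] at h3
    have h4 : P (N (P (N w))) - N (P (N (P w))) = 0 := by
      have h5 : P (N (P (N w))) - N (P (N (P w))) =
        (w + P w + N (P w) + P (N w) + N (P (N w)) + (P w + P (N (P w)) + P (N (P (N w))))) -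
        (w + P w + P w + (N (P w)) + (P (N w) + P (N (P w))) + (N (P (N w)) + N (P (N (P w))))) := by abel
      rw [h5]
      rw [sub_eq_zero]
      exact h3
    exact sub_eq_zero.1 h4
  by_cases hall : ∀ w, (t + 1) ((d₁ + 1) ((t + 1) w)) = 0
  · exact D.two_aux hW h2 hall
  push Not at hall
  obtain ⟨e', he'⟩ := hall
  rw [← hN, ← hP] at he'
  obtain ⟨v', hv'⟩ : ∃ v', v' = N e' := ⟨_, rfl⟩
  obtain ⟨v, hv⟩ : ∃ v, v = N (P v') := ⟨_, rfl⟩
  have v0 : v ≠ 0 := by rw [hv, hv']; exact he'
  have Nv' : N v' = 0 := by rw [hv', NN]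
  have Nv : N v = 0 := by rw [hv, NN]
  have NPv : N (P v) = 0 := by
    rw [hv, ← star, Nv', map_zero, map_zero, map_zero]
  have li : LinearIndependent F ![v', v] := by
    rw [LinearIndependent.pair_iff]
    intro p q hpq
    have h3 := congrArg (fun w => N (P w)) hpq
    simp only [map_add, map_smul, map_zero] at h3
    rw [← hv, NPv, smul_zero, add_zero] at h3
    have hp : p = 0 := (smul_eq_zero.1 h3).resolve_right v0
    rw [hp, zero_smul, zero_add] at hpq
    exact ⟨hp, (smul_eq_zero.1 hpq).resolve_right v0⟩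
  have hrn := LinearMap.finrank_range_add_finrank_ker N
  rw [hW] at hrn
  have hle : LinearMap.range N ≤ LinearMap.ker N := by
    rintro _ ⟨w, rfl⟩
    rw [LinearMap.mem_ker]
    exact NN w
  have hle' := Submodule.finrank_mono hle
  have hsp : Submodule.span F (Set.range ![v', v]) ≤ LinearMap.range N := by
    apply Submodule.span_le.2
    rintro _ ⟨i, rfl⟩
    fin_cases i
    · exact ⟨e', hv'.symm⟩
    · exact ⟨P v', hv.symm⟩
  have h5 := Submodule.finrank_mono hsp
  rw [finrank_span_eq_card li, Fintype.card_fin] at h5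
  have hker : Submodule.span F (Set.range ![v', v]) = LinearMap.ker N :=
    Submodule.eq_of_le_of_finrank_eq (hsp.trans hle) (by rw [finrank_span_eq_card li, Fintype.card_fin]; omega)
  have memker : ∀ w, N w = 0 → ∃ p q : F, w = p • v' + q • v := fun w hw =>
    mem_span2.1 (by rw [hker, LinearMap.mem_ker]; exact hw)
  have Pv : P v = 0 := by
    obtain ⟨p, q, hpq⟩ := memker _ NPv
    have h6 := congrArg (fun w => N (P w)) hpq
    simp only [map_add, map_smul, PP, map_zero] at h6
    rw [← hv, NPv, smul_zero, add_zero] at h6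
    have hp : p = 0 := (smul_eq_zero.1 h6.symm).resolve_right v0
    rw [hp, zero_smul, zero_add] at hpq
    have h7 := congrArg P hpq
    rw [PP, map_smul, hpq, smul_smul] at h7
    have h8 := (smul_eq_zero.1 h7.symm).resolve_right v0
    rw [hpq, (mul_self_eq_zero.1 h8), zero_smul]
  have tv : t v = v := by rw [ta, Nv, add_zero]
  have d1v : d₁ v = v := by rw [da, Pv, add_zero]
  have d2v : d₂ v = v := by rw [d2t, tv, d1v, tv]
  have d0v : d₀ v = v := by rw [← mul_ap D.h21, d1v, d2v]
  obtain ⟨e₁, he₁⟩ : ∃ e₁, e₁ = y v := ⟨_, rfl⟩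
  have e₁0 : e₁ ≠ 0 := by
    intro h6
    have xv : x v = v := by rw [xa, ← he₁, h6, add_zero]
    have inv : ∀ T : Module.End F W, T v = v → ∀ u ∈ Submodule.span F {v}, T u ∈ Submodule.span F {v} := by
      intro T hT u hu
      obtain ⟨c, rfl⟩ := Submodule.mem_span_singleton.1 hu
      rw [map_smul, hT]
      exact hu
    rcases D.irr _ (inv x xv) (inv d₀ d0v) (inv d₁ d1v) (inv d₂ d2v) with h7 | h7
    · exact v0 ((Submodule.span_singleton_eq_bot).1 h7)
    · have h8 := finrank_span_singleton (K := F) v0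
      rw [h7, finrank_top] at h8
      omega
  have ye₁ : y e₁ = 0 := by rw [he₁, yy, Nv]
  have Ne₁ : N e₁ = 0 := by rw [← yy, ye₁, map_zero]
  obtain ⟨c, β, hc⟩ := memker e₁ Ne₁
  have c0 : c ≠ 0 := by
    rintro rfl
    rw [zero_smul, zero_add] at hc
    have h6 : β • e₁ = 0 := by
      have h7 := congrArg y hc
      rw [ye₁, map_smul, ← he₁] at h7
      exact h7.symm
    have h7 := (smul_eq_zero.1 h6).resolve_right e₁0
    exact e₁0 (by rw [hc, h7, zero_smul])
  obtain ⟨e₄, he₄⟩ : ∃ e₄, e₄ = P v' := ⟨_, rfl⟩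
  obtain ⟨e₃, he₃⟩ : ∃ e₃, e₃ = y e₄ := ⟨_, rfl⟩
  have Ne₄ : N e₄ = v := by rw [he₄, hv]
  have ye₃ : y e₃ = v := by rw [he₃, yy, Ne₄]
  have Ne₃ : N e₃ = e₁ := by rw [← yy, ye₃, he₁]
  have Pe₄ : P e₄ = 0 := by rw [he₄, PP]
  have Pe₁ : P e₁ = c • e₄ := by rw [hc, map_add, map_smul, map_smul, Pv, smul_zero, add_zero, he₄]
  have key : ∀ p q : F, p • e₁ + q • v = 0 → p = 0 ∧ q = 0 := by
    intro p q hpq
    have h6 := congrArg (fun w => N (P w)) hpq
    simp only [map_add, map_smul, Pe₁, Pv, map_zero, smul_zero, add_zero, Ne₄] at h6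
    rw [smul_smul] at h6
    have hp : p = 0 := (mul_eq_zero.1 ((smul_eq_zero.1 h6).resolve_right v0)).resolve_right c0
    rw [hp, zero_smul, zero_add] at hpq
    exact ⟨hp, (smul_eq_zero.1 hpq).resolve_right v0⟩
  have li4 : LinearIndependent F ![e₁, v, e₃, e₄] := by
    rw [Fintype.linearIndependent_iff]
    intro g hg
    rw [Fin.sum_univ_four] at hg
    have hg' : g 0 • e₁ + g 1 • v + g 2 • e₃ + g 3 • e₄ = 0 := hg
    have h6 := congrArg N hg'
    simp only [map_add, map_smul, map_zero, Ne₁, Nv, Ne₃, Ne₄, smul_zero, zero_add] at h6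
    obtain ⟨g2, g3⟩ := key _ _ h6
    rw [g2, g3, zero_smul, zero_smul, add_zero, add_zero] at hg'
    obtain ⟨g0, g1⟩ := key _ _ hg'
    intro i
    fin_cases i
    exacts [g0, g1, g2, g3]
  obtain ⟨p, hp⟩ : ∃ p : Fin 4 → F, P e₃ = p 0 • e₁ + p 1 • v + p 2 • e₃ + p 3 • e₄ := by
    have h6 := li4.span_eq_top_of_card_eq_finrank' (by rw [hW, Fintype.card_fin])
    have h7 : P e₃ ∈ Submodule.span F (Set.range ![e₁, v, e₃, e₄]) := by rw [h6]; trivial
    rw [Submodule.mem_span_range_iff_exists_fun] at h7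
    obtain ⟨p, hp⟩ := h7
    rw [Fin.sum_univ_four] at hp
    exact ⟨p, hp.symm⟩
  have hq := Fintype.linearIndependent_iff.1 li4 ![p 2 * p 0, p 2 * p 1, p 2 * p 2, p 0 * c + p 2 * p 3] (by
    rw [Fin.sum_univ_four]
    show (p 2 * p 0) • e₁ + (p 2 * p 1) • v + (p 2 * p 2) • e₃ + (p 0 * c + p 2 * p 3) • e₄ = 0
    have h6 := congrArg P hp
    rw [PP] at h6
    simp only [map_add, map_smul, Pe₁, Pv, Pe₄, smul_zero, add_zero, hp] at h6
    refine Eq.trans ?_ h6.symm
    module)
  have q2 : p 2 * p 2 = 0 := hq 2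
  have q3 : p 0 * c + p 2 * p 3 = 0 := hq 3
  have p2 : p 2 = 0 := mul_self_eq_zero.1 q2
  have p0 : p 0 = 0 := by
    rw [p2, zero_mul, add_zero] at q3
    exact (mul_eq_zero.1 q3).resolve_right c0
  rw [p0, p2, zero_smul, zero_smul, zero_add, add_zero] at hp
  generalize p 1 = s at hp
  generalize p 3 = r at hp
  clear hq q2 q3 p2 p0 p
  -- matrices
  let b := basisOfLinearIndependentOfCardEqFinrank li4 (by rw [hW, Fintype.card_fin])
  have hb : ∀ i, b i = ![e₁, v, e₃, e₄] i := fun i => congrFun (coe_basisOfLinearIndependentOfCardEqFinrank li4 _) i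
  have b0 : b 0 = e₁ := hb 0
  have b1 : b 1 = v := hb 1
  have b2 : b 2 = e₃ := hb 2
  have b3 : b 3 = e₄ := hb 3
  have hx0 : x (b 0) = b 0 := by rw [b0, xa, ye₁, add_zero]
  have hx1 : x (b 1) = b 1 + b 0 := by rw [b0, b1, xa, ← he₁]
  have hx2 : x (b 2) = b 2 + b 1 := by rw [b2, b1, xa, ye₃]
  have hx3 : x (b 3) = b 3 + b 2 := by rw [b3, b2, xa, ← he₃]
  have ht0 : t (b 0) = b 0 := by rw [b0, ta, Ne₁, add_zero]
  have ht1 : t (b 1) = b 1 := by rw [b1, tv]
  have ht2 : t (b 2) = b 2 + b 0 := by rw [b2, b0, ta, Ne₃]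
  have ht3 : t (b 3) = b 3 + b 1 := by rw [b3, b1, ta, Ne₄]
  have hd0 : d₁ (b 0) = b 0 + c • b 3 := by rw [b0, b3, da, Pe₁]
  have hd1 : d₁ (b 1) = b 1 := by rw [b1, d1v]
  have hd2 : d₁ (b 2) = b 2 + (s • b 1 + r • b 3) := by rw [b2, b1, b3, da, hp]
  have hd3 : d₁ (b 3) = b 3 := by rw [b3, da, Pe₄, add_zero]
  clear_value b
  let M := LinearMap.toMatrixAlgEquiv b
  have X : M x = !![1, 1, 0, 0; 0, 1, 1, 0; 0, 0, 1, 1; 0, 0, 0, 1] := by
    ext i j
    rw [LinearMap.toMatrixAlgEquiv_apply]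
    fin_cases j <;> fin_cases i <;> simp [hx0, hx1, hx2, hx3]
  have T : M t = !![1, 0, 1, 0; 0, 1, 0, 1; 0, 0, 1, 0; 0, 0, 0, 1] := by
    ext i j
    rw [LinearMap.toMatrixAlgEquiv_apply]
    fin_cases j <;> fin_cases i <;> simp [ht0, ht1, ht2, ht3]
  have D1 : M d₁ = !![1, 0, 0, 0; 0, 1, s, 0; 0, 0, 1, 0; c, 0, r, 1] := by
    ext i j
    rw [LinearMap.toMatrixAlgEquiv_apply]
    fin_cases j <;> fin_cases i <;> simp [hd0, hd1, hd2, hd3]
  have D2 : M d₂ = M t * (M d₁ * M t) := by
    rw [← map_mul, ← map_mul]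
    congr 1
    apply LinearMap.ext
    intro w
    exact d2t w
  have D0 : M d₀ = M d₂ * M d₁ := by rw [← map_mul, D.h21]
  obtain ⟨y₀, y₁, y₂, hy0, hy1, hy2, E0, E1, E2⟩ := r6_entries' D.hω D.ht D.tt D.h00 D.h11 D.h22 D.r6
  refine c0 (two_fin' (X := M x) (T := M t) (D0 := M d₀) (D1 := M d₁) (D2 := M d₂) (Y0 := M y₀) (Y1 := M y₁)
    (Y2 := M y₂) h2 D.hω X T D1 D2 D0 ?_ ?_ ?_ ?_)
  · rw [hy0]
    simp only [map_mul, map_add]
  · rw [hy1]
    simp only [map_mul, map_add, map_smul]
  · rw [hy2]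
    simp only [map_mul, map_add, map_smul]
  · have h6 := congrArg M E0
    simp only [map_mul, map_add] at h6
    exact h6

end two

section main

open Cfsg Cfsg.Geo Cfsg.Agent.H913.N6
open Cfsg.Agent.H915.LD
open Cfsg.Agent.H907
open Cfsg.Agent.H915.A7Old (Z3)

variable {ι : Type} [Fintype ι] [DecidableEq ι] {F : Type*} [Field F] [Finite F] {P : Subgroup (GL ι F)}

/-- **`3.A₇` in dimension twelve is impossible.** -/
theorem twelve_three (hC : Core P) (e : Soc P ≃* alternatingGroup (Fin 7)) (hn : Fintype.card ι = 12)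
    (hZ : Z3 P) (hz : ∃ c : Fˣ, c ≠ 1 ∧ (sc c : GL ι F) ∈ P) : False := by
  obtain ⟨W, ω, x, d₀, d₁, d₂, t, D, hW⟩ := exists_dat hC (Cov.of e) hZ hz
  rw [hn] at hW
  have hW4 : Module.finrank F W = 4 := by omega
  by_cases h2 : (2 : F) = 0
  · exact D.four_two hW4 h2
  · exact D.four_odd hW4 h2

/-- **`A₇` and its covers in dimension twelve, except `6.A₇`.** -/
theorem twelve (p : ℕ) [Fact p.Prime] [CharP F p] (hC : Core P) (e : Soc P ≃* alternatingGroup (Fin 7))
    (hn : Fintype.card ι = 12) : SD P ∨ (p ≠ 2 ∧ p ≠ 3 ∧ (sc (-1) : GL ι F) ∈ P ∧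
      ∃ c : Fˣ, c ≠ 1 ∧ c ^ 3 = 1 ∧ (sc c : GL ι F) ∈ P) := by
  by_cases hz : ∃ c : Fˣ, c ≠ 1 ∧ c ^ 3 = 1 ∧ (sc c : GL ι F) ∈ P
  · right
    obtain ⟨c, hc1, hc3, hcP⟩ := hz
    have hp3 : p ≠ 3 := by
      rintro rfl
      have h3 : (3 : F) = 0 := by exact_mod_cast CharP.cast_eq_zero F 3
      have h4 : ((c : F) - 1) ^ 3 = 0 := by
        have h5 : (c : F) ^ 3 = 1 := by rw [← Units.val_pow_eq_pow_val, hc3, Units.val_one]
        linear_combination h5 - ((c : F) ^ 2 - c) * h3
      exact hc1 (Units.ext (by rw [Units.val_one]; exact sub_eq_zero.1 (pow_eq_zero_iff (by norm_num) |>.1 h4)))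
    by_cases hZ : Z3 P
    · exact (twelve_three hC e hn hZ ⟨c, hc1, hcP⟩).elim
    · have hZ' : ∃ d : Fˣ, (sc d : GL ι F) ∈ P ∧ d ^ 3 ≠ 1 := by
        by_contra hcon
        push Not at hcon
        exact hZ hcon
      obtain ⟨d, hd, hd3⟩ := hZ'
      have h6 := (scalars_dvd hC e hd).1
      have h7 : ((d ^ 3 : Fˣ) : F) ^ 2 = 1 := by
        rw [← Units.val_pow_eq_pow_val, ← pow_mul, h6, Units.val_one]
      have h8 : d ^ 3 = -1 := by
        have h9 : (((d ^ 3 : Fˣ) : F) - 1) * (((d ^ 3 : Fˣ) : F) + 1) = 0 := by linear_combination h7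
        rcases mul_eq_zero.1 h9 with h | h
        · exact absurd (Units.ext (sub_eq_zero.1 h)) hd3
        · exact Units.ext (by rw [Units.val_neg, Units.val_one]; exact eq_neg_of_add_eq_zero_left h)
      refine ⟨?_, hp3, ?_, c, hc1, hc3, hcP⟩
      · rintro rfl
        have h2 : (2 : F) = 0 := by exact_mod_cast CharP.cast_eq_zero F 2
        apply hd3
        rw [h8]
        apply Units.ext
        rw [Units.val_neg, Units.val_one]
        linear_combination -h2
      · rw [← h8, sc_pow]
        exact pow_mem hd 3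
  · left
    push Not at hz
    rcases A7Main.le_two p hC e (fun g hg hs => by
      obtain ⟨c, rfl⟩ := mem_scalars.1 hs
      have h6 := (scalars_dvd hC e hg).1
      have h7 : c ^ 2 = 1 := by
        by_contra h8
        refine hz (c ^ 2) h8 (by rw [← pow_mul, h6]) ?_
        rw [sc_pow]
        exact pow_mem hg 2
      rw [← sq, ← sc_pow, h7, sc_one]) with h | ⟨h, -⟩
    · exact h
    · rw [hn] at h
      omega

end main

end Cfsg.Agent.H637.Three
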