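import Cfsg.Agent.H637.A7Nine

/-!
# `3.A₇` in dimension twelve (helper637)
-/

set_option autoImplicit false
set_option linter.unusedSectionVars false
set_option linter.unusedSimpArgs false

namespace Cfsg.Agent.H637.Three

open Matrix
open Cfsg.Agent.H915.A7Old (a3 b3 dg gm rm fin3 ext3 omega_cube omega_ne mul3 gm_mul_gm gm_entries dg_entries rm_entries)

section gen

variable {F : Type*} [Field F] {R : Type*} [Ring R] [Algebra F R] {ω : F}

/-- three blocks of the relation of order six -/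
theorem r6_entries' (hω : ω ^ 2 + ω + 1 = 0) {x d₀ d₁ d₂ t : R} (ht : t = (3 : F) • (x * x)) (tt : t * t = 1)
    (h00 : d₀ * d₀ = 1) (h11 : d₁ * d₁ = 1) (h22 : d₂ * d₂ = 1)
    (r6 : (dg d₀ d₁ d₂ * (gm ω x * dg d₀ d₁ d₂ * (gm ω x * (gm ω x * gm ω x)))) ^ 3 = gm ω x * gm ω x) :
    ∃ y₀ y₁ y₂ : R, y₀ = x * (d₀ + d₁ + d₂) * (x * t) ∧ y₁ = x * (d₀ + ω ^ 2 • d₁ + ω • d₂) * (x * t) ∧
      y₂ = x * (d₀ + ω • d₁ + ω ^ 2 • d₂) * (x * t) ∧
      d₀ * y₀ * d₀ = t * (y₀ * d₀ * y₀ + y₂ * d₁ * y₁ + y₁ * d₂ * y₂) ∧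
      d₀ * y₂ * d₁ = t * (y₀ * d₀ * y₂ + y₂ * d₁ * y₀ + y₁ * d₂ * y₁) ∧
      d₁ * y₁ * d₀ = t * (y₂ * d₀ * y₀ + y₁ * d₁ * y₁ + y₀ * d₂ * y₂) := by
  obtain ⟨y₀, y₁, y₂, h0, h1, h2, h⟩ := r6_block hω ht tt h00 h11 h22 r6
  obtain ⟨r00, r01, r02, r10, r11, r12, r20, r21, r22⟩ := rm_entries t
  obtain ⟨k00, k01, k02, k10, k11, k12, k20, k21, k22⟩ := dg_entries d₀ d₁ d₂
  obtain ⟨p00, p01, p02, p10, p11, p12, p20, p21, p22⟩ := ci_entries y₀ y₁ y₂
  refine ⟨y₀, y₁, y₂, h0, h1, h2, ?_, ?_, ?_⟩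
  · have e := congrFun (congrFun h 0) 0
    simp only [mul3, p00, p01, p02, p10, p11, p12, p20, p21, p22, r00, r01, r02, r10, r11, r12, r20, r21, r22,
      k00, k01, k02, k10, k11, k12, k20, k21, k22, mul_zero, zero_mul, add_zero, zero_add] at e
    exact e
  · have e := congrFun (congrFun h 0) 1
    simp only [mul3, p00, p01, p02, p10, p11, p12, p20, p21, p22, r00, r01, r02, r10, r11, r12, r20, r21, r22,
      k00, k01, k02, k10, k11, k12, k20, k21, k22, mul_zero, zero_mul, add_zero, zero_add] at e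
    exact e
  · have e := congrFun (congrFun h 1) 0
    simp only [mul3, p00, p01, p02, p10, p11, p12, p20, p21, p22, r00, r01, r02, r10, r11, r12, r20, r21, r22,
      k00, k01, k02, k10, k11, k12, k20, k21, k22, mul_zero, zero_mul, add_zero, zero_add] at e
    exact e

end gen

section odd

variable {F W : Type*} [Field F] [AddCommGroup W] [Module F W] {ω : F} {x d₀ d₁ d₂ t : Module.End F W}

/-- the pair `f, h` -/
theorem Dat.exists_fh [FiniteDimensional F W] (D : Dat ω x d₀ d₁ d₂ t) (h2 : (2 : F) ≠ 0) {e₁ : W} (he₁ : e₁ ≠ 0)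
    (h01 : d₀ e₁ = -e₁) (h11 : d₁ e₁ = e₁) : ∃ f h : W, e₁ + e₁ = f + h ∧ f ≠ 0 ∧ h ≠ 0 ∧ t f = f ∧ t h = -h ∧
      d₀ f = -f ∧ d₀ h = -h ∧ d₁ f = h ∧ d₁ h = f ∧ d₂ f = -h ∧ d₂ h = -f := by
  have h21 : d₂ e₁ = -e₁ := by rw [← mul_ap D.h10, h01, map_neg, h11]
  obtain ⟨f, hf⟩ : ∃ f, f = e₁ + t e₁ := ⟨_, rfl⟩
  obtain ⟨h, hh⟩ : ∃ h, h = e₁ - t e₁ := ⟨_, rfl⟩
  have q0 : d₀ (t e₁) = -t e₁ := by
    have : d₀ (t e₁) = t (d₀ e₁) := congrArg (fun T : Module.End F W => T e₁) D.t0.symm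
    rw [this, h01, map_neg]
  have q1 : d₁ (t e₁) = -t e₁ := by
    have : d₁ (t e₁) = t (d₂ e₁) := congrArg (fun T : Module.End F W => T e₁) D.t2.symm
    rw [this, h21, map_neg]
  have q2 : d₂ (t e₁) = t e₁ := by
    have : d₂ (t e₁) = t (d₁ e₁) := congrArg (fun T : Module.End F W => T e₁) D.t1.symm
    rw [this, h11]
  have tte : t (t e₁) = e₁ := mul_ap D.tt e₁
  have d1f : d₁ f = h := by rw [hf, hh, map_add, h11, q1]; abel
  have d1h : d₁ h = f := by rw [hf, hh, map_sub, h11, q1]; abel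
  have hf0 : f ≠ 0 := by
    intro h0
    apply he₁
    have h3 : h = 0 := by rw [← d1f, h0, map_zero]
    have h4 : (2 : F) • e₁ = 0 := by
      have : (2 : F) • e₁ = f + h := by rw [hf, hh]; module
      rw [this, h0, h3, add_zero]
    exact (smul_eq_zero.1 h4).resolve_left h2
  have hh0 : h ≠ 0 := fun h0 => hf0 (by rw [← d1h, h0, map_zero])
  refine ⟨f, h, by rw [hf, hh]; abel, hf0, hh0, ?_, ?_, ?_, ?_, d1f, d1h, ?_, ?_⟩
  · rw [hf, map_add, tte, add_comm]
  · rw [hh, map_sub, tte, neg_sub]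
  · rw [hf, map_add, h01, q0]; abel
  · rw [hh, map_sub, h01, q0]; abel
  · rw [hf, hh, map_add, h21, q2]; abel
  · rw [hf, hh, map_sub, h21, q2]; abel

theorem mem_span2 {f h : W} {w : W} : w ∈ Submodule.span F (Set.range ![f, h]) ↔ ∃ p q : F, w = p • f + q • h := by
  rw [Submodule.mem_span_range_iff_exists_fun]
  constructor
  · rintro ⟨c, hc⟩
    rw [Fin.sum_univ_two] at hc
    exact ⟨c 0, c 1, hc.symm⟩
  · rintro ⟨p, q, hw⟩
    refine ⟨![p, q], ?_⟩
    rw [Fin.sum_univ_two]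
    exact hw.symm

/-- invariance of a span -/
theorem span_inv {n : ℕ} {v : Fin n → W} (T : Module.End F W) (h : ∀ i, T (v i) ∈ Submodule.span F (Set.range v)) :
    ∀ u ∈ Submodule.span F (Set.range v), T u ∈ Submodule.span F (Set.range v) := by
  intro u hu
  have : Submodule.span F (Set.range v) ≤ (Submodule.span F (Set.range v)).comap T := by
    apply Submodule.span_le.2
    rintro _ ⟨i, rfl⟩
    exact h i
  exact this hu

theorem li2 {T : Module.End F W} (h2 : (2 : F) ≠ 0) {f h : W} (hf : f ≠ 0) (hh : h ≠ 0) (tf : T f = f) (th : T h = -h) :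
    LinearIndependent F ![f, h] := by
  rw [LinearIndependent.pair_iff]
  intro p q e
  have e2 := congrArg T e
  rw [map_add, map_smul, map_smul, tf, th, map_zero] at e2
  have e3 : (2 * p) • f = 0 := by
    have : (2 * p) • f = (p • f + q • h) + (p • f + q • -h) := by module
    rw [this, e, e2, add_zero]
  have e4 : (2 * q) • h = 0 := by
    have : (2 * q) • h = (p • f + q • h) - (p • f + q • -h) := by module
    rw [this, e, e2, sub_zero]
  exact ⟨(mul_eq_zero.1 ((smul_eq_zero.1 e3).resolve_right hf)).resolve_left h2,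
    (mul_eq_zero.1 ((smul_eq_zero.1 e4).resolve_right hh)).resolve_left h2⟩

/-- a vector outside the span of few vectors -/
theorem exists_notMem [FiniteDimensional F W] {n : ℕ} (v : Fin n → W) (hn : n < Module.finrank F W) :
    ∃ w, w ∉ Submodule.span F (Set.range v) := by
  by_contra hcon
  push Not at hcon
  have h1 : Submodule.span F (Set.range v) = ⊤ := by rw [eq_top_iff]; exact fun u _ => hcon u
  have h2 := finrank_range_le_card (R := F) v
  rw [Fintype.card_fin, Set.finrank, h1, finrank_top] at h2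
  omega

/-- joint eigenvectors for `d₁`, `t` in `ker (d₀ - 1)` -/
theorem Dat.joint (D : Dat ω x d₀ d₁ d₂ t) (h2 : (2 : F) ≠ 0) {S : Submodule F W} {u : W} (hu : u ∉ S)
    (h0 : d₀ u = u) : ∃ v, v ∉ S ∧ d₀ v = v ∧ (∃ δ : F, (δ = 1 ∨ δ = -1) ∧ d₁ v = δ • v ∧ d₂ v = δ • v) ∧
      ∃ τ : F, (τ = 1 ∨ τ = -1) ∧ t v = τ • v := by
  -- first `d₁`
  obtain ⟨v, hv, hv0, δ, hδ, hδv⟩ : ∃ v, v ∉ S ∧ d₀ v = v ∧ ∃ δ : F, (δ = 1 ∨ δ = -1) ∧ d₁ v = δ • v := by
    have c01 : ∀ w, d₀ w = w → d₀ (d₁ w) = d₁ w := by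
      intro w hw
      rw [mul_ap D.h01, ← mul_ap D.h10, hw]
    by_cases h3 : u + d₁ u ∈ S
    · have h4 : u - d₁ u ∉ S := by
        intro h4
        apply hu
        have h5 := S.smul_mem (2 : F)⁻¹ (S.add_mem h3 h4)
        have h6 : (2 : F)⁻¹ • (u + d₁ u + (u - d₁ u)) = u := by
          have : u + d₁ u + (u - d₁ u) = (2 : F) • u := by module
          rw [this, smul_smul, inv_mul_cancel₀ h2, one_smul]
        rwa [h6] at h5
      refine ⟨_, h4, by rw [map_sub, h0, c01 u h0], -1, Or.inr rfl, ?_⟩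
      rw [map_sub, mul_ap D.h11, Module.End.one_apply]
      module
    · refine ⟨_, h3, by rw [map_add, h0, c01 u h0], 1, Or.inl rfl, ?_⟩
      rw [map_add, mul_ap D.h11, Module.End.one_apply]
      module
  have hd2 : ∀ w, d₀ w = w → d₂ w = d₁ w := fun w hw => by rw [← mul_ap D.h10, hw]
  have ct0 : ∀ w, d₀ w = w → d₀ (t w) = t w := by
    intro w hw
    have : d₀ (t w) = t (d₀ w) := congrArg (fun T : Module.End F W => T w) D.t0.symm
    rw [this, hw]
  have ct1 : ∀ w, d₀ w = w → d₁ (t w) = t (d₁ w) := by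
    intro w hw
    have h5 : t (d₂ w) = d₁ (t w) := congrArg (fun T : Module.End F W => T w) D.t2
    rw [← h5, hd2 w hw]
  by_cases h3 : v + t v ∈ S
  · have h4 : v - t v ∉ S := by
      intro h4
      apply hv
      have h5 := S.smul_mem (2 : F)⁻¹ (S.add_mem h3 h4)
      have h6 : (2 : F)⁻¹ • (v + t v + (v - t v)) = v := by
        have : v + t v + (v - t v) = (2 : F) • v := by module
        rw [this, smul_smul, inv_mul_cancel₀ h2, one_smul]
      rwa [h6] at h5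
    have h7 : d₀ (v - t v) = v - t v := by rw [map_sub, hv0, ct0 v hv0]
    have h8 : d₁ (v - t v) = δ • (v - t v) := by
      rw [map_sub, ct1 v hv0, hδv, map_smul, smul_sub]
    refine ⟨_, h4, h7, ⟨δ, hδ, h8, by rw [hd2 _ h7, h8]⟩, -1, Or.inr rfl, ?_⟩
    rw [map_sub, mul_ap D.tt, Module.End.one_apply]
    module
  · have h7 : d₀ (v + t v) = v + t v := by rw [map_add, hv0, ct0 v hv0]
    have h8 : d₁ (v + t v) = δ • (v + t v) := by
      rw [map_add, ct1 v hv0, hδv, map_smul, smul_add]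
    refine ⟨_, h3, h7, ⟨δ, hδ, h8, by rw [hd2 _ h7, h8]⟩, 1, Or.inl rfl, ?_⟩
    rw [map_add, mul_ap D.tt, Module.End.one_apply]
    module

theorem trace4 (b : Module.Basis (Fin 4) F W) (T : Module.End F W) (c₀ c₁ c₂ c₃ : F) (h0 : b.repr (T (b 0)) 0 = c₀)
    (h1 : b.repr (T (b 1)) 1 = c₁) (h2 : b.repr (T (b 2)) 2 = c₂) (h3 : b.repr (T (b 3)) 3 = c₃) :
    LinearMap.trace F W T = c₀ + c₁ + c₂ + c₃ := by
  rw [LinearMap.trace_eq_matrix_trace F b, Matrix.trace, Fin.sum_univ_four]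
  simp only [Matrix.diag_apply, LinearMap.toMatrix_apply, h0, h1, h2, h3]

/-- `d₀` is not `-1` on more than the plane of `f, h` -/
theorem Dat.no_more [FiniteDimensional F W] (D : Dat ω x d₀ d₁ d₂ t) (hW : Module.finrank F W = 4)
    (h2 : (2 : F) ≠ 0) {f h : W} (hf0 : f ≠ 0) (hh0 : h ≠ 0) (tf : t f = f) (th : t h = -h) (d0f : d₀ f = -f)
    (d0h : d₀ h = -h) (d1f : d₁ f = h) (d1h : d₁ h = f) (d2f : d₂ f = -h) (d2h : d₂ h = -f) {v : W}
    (hv : v ∉ Submodule.span F (Set.range ![f, h])) (hdv : d₀ v = -v) : False := by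
  set S := Submodule.span F (Set.range ![f, h]) with hS
  have hfS : f ∈ S := Submodule.subset_span ⟨0, rfl⟩
  have hhS : h ∈ S := Submodule.subset_span ⟨1, rfl⟩
  have hSt : ∀ u ∈ S, t u ∈ S := span_inv t fun i => by
    fin_cases i
    · show t f ∈ _; rw [tf]; exact hfS
    · show t h ∈ _; rw [th]; exact neg_mem hhS
  have hS1 : ∀ u ∈ S, d₁ u ∈ S := span_inv d₁ fun i => by
    fin_cases i
    · show d₁ f ∈ _; rw [d1f]; exact hhS
    · show d₁ h ∈ _; rw [d1h]; exact hfS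
  have c01 : ∀ w, d₀ w = -w → d₀ (d₁ w) = -d₁ w := by
    intro w hw
    rw [mul_ap D.h01, ← mul_ap D.h10, hw, map_neg]
  have c0t : ∀ w, d₀ w = -w → d₀ (t w) = -t w := by
    intro w hw
    have : d₀ (t w) = t (d₀ w) := congrArg (fun T : Module.End F W => T w) D.t0.symm
    rw [this, hw, map_neg]
  obtain ⟨e, he, he0, he1⟩ : ∃ e, e ∉ S ∧ d₀ e = -e ∧ d₁ e = e := by
    by_cases h3 : v + d₁ v ∈ S
    · have h4 : v - d₁ v ∉ S := by
        intro h4
        apply hv
        have h5 := S.smul_mem (2 : F)⁻¹ (S.add_mem h3 h4)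
        have h6 : (2 : F)⁻¹ • (v + d₁ v + (v - d₁ v)) = v := by
          have : v + d₁ v + (v - d₁ v) = (2 : F) • v := by module
          rw [this, smul_smul, inv_mul_cancel₀ h2, one_smul]
        rwa [h6] at h5
      obtain ⟨u, hu⟩ : ∃ u, u = v - d₁ v := ⟨_, rfl⟩
      have hu0 : d₀ u = -u := by rw [hu, map_sub, hdv, c01 v hdv]; abel
      have hu1 : d₁ u = -u := by
        rw [hu, map_sub, mul_ap D.h11, Module.End.one_apply]; abel
      rw [← hu] at h4
      refine ⟨t u, fun h5 => h4 ?_, c0t u hu0, ?_⟩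
      · have := hSt _ h5
        rwa [mul_ap D.tt] at this
      · have h5 : t (d₂ u) = d₁ (t u) := congrArg (fun T : Module.End F W => T u) D.t2
        rw [← h5, ← mul_ap D.h10, hu0, map_neg, hu1, neg_neg]
    · exact ⟨_, h3, by rw [map_add, hdv, c01 v hdv]; abel, by
        rw [map_add, mul_ap D.h11, Module.End.one_apply]; abel⟩
  obtain ⟨f', h', hee, hf0', hh0', tf', th', d0f', d0h', d1f', d1h', d2f', d2h'⟩ :=
    D.exists_fh h2 (fun h3 => he (by rw [h3]; exact zero_mem S)) he0 he1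
  have hf'S : f' ∉ S := by
    intro h3
    have h4 := hS1 _ h3
    rw [d1f'] at h4
    apply he
    have h5 := S.smul_mem (2 : F)⁻¹ (S.add_mem h3 h4)
    rw [← hee] at h5
    have h6 : (2 : F)⁻¹ • (e + e) = e := by
      have : e + e = (2 : F) • e := by module
      rw [this, smul_smul, inv_mul_cancel₀ h2, one_smul]
    rwa [h6] at h5
  have hh'S : h' ∉ S := by
    intro h3
    have h4 := hS1 _ h3
    rw [d1h'] at h4
    exact hf'S h4
  have li0 : LinearIndependent F ![f, h] := li2 h2 hf0 hh0 tf th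
  have li1 : LinearIndependent F ![h', f, h] := linearIndependent_finCons.2 ⟨li0, hh'S⟩
  have li : LinearIndependent F ![f', h', f, h] := by
    refine linearIndependent_finCons.2 ⟨li1, ?_⟩
    intro h3
    rw [Submodule.mem_span_range_iff_exists_fun] at h3
    obtain ⟨c, hc⟩ := h3
    rw [Fin.sum_univ_three] at hc
    have hc' : c 0 • h' + c 1 • f + c 2 • h = f' := hc
    have h4 := congrArg t hc'
    rw [map_add, map_add, map_smul, map_smul, map_smul, th', tf, th, tf'] at h4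
    apply hf'S
    have h5 : f' = c 1 • f := by
      have h6 : (2 : F) • f' = (2 : F) • (c 1 • f) := by
        rw [two_smul]
        nth_rewrite 1 [← hc']
        rw [← h4]
        module
      have h7 := congrArg (fun w => (2 : F)⁻¹ • w) h6
      simp only [smul_smul, inv_mul_cancel₀ h2, one_smul] at h7
      rw [h7, ← mul_assoc, inv_mul_cancel₀ h2, one_mul]
    rw [h5]
    exact S.smul_mem _ hfS
  obtain ⟨b, hb⟩ : ∃ b : Module.Basis (Fin 4) F W, ⇑b = ![f', h', f, h] :=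
    ⟨basisOfLinearIndependentOfCardEqFinrank li (by rw [Fintype.card_fin, hW]),
      coe_basisOfLinearIndependentOfCardEqFinrank _ _⟩
  have b0 : b 0 = f' := by rw [hb]; rfl
  have b1 : b 1 = h' := by rw [hb]; rfl
  have b2 : b 2 = f := by rw [hb]; rfl
  have b3 : b 3 = h := by rw [hb]; rfl
  have t_t := trace4 b t 1 (-1) 1 (-1) (by rw [b0, tf', ← b0]; simp) (by rw [b1, th', ← b1]; simp)
    (by rw [b2, tf, ← b2]; simp) (by rw [b3, th, ← b3]; simp)
  have t_0 := trace4 b d₀ (-1) (-1) (-1) (-1) (by rw [b0, d0f', ← b0]; simp) (by rw [b1, d0h', ← b1]; simp)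
    (by rw [b2, d0f, ← b2]; simp) (by rw [b3, d0h, ← b3]; simp)
  have t_1 := trace4 b d₁ 0 0 0 0 (by rw [b0, d1f', ← b1]; simp) (by rw [b1, d1h', ← b0]; simp)
    (by rw [b2, d1f, ← b3]; simp) (by rw [b3, d1h, ← b2]; simp)
  have t_2 := trace4 b d₂ 0 0 0 0 (by rw [b0, d2f', ← b1]; simp) (by rw [b1, d2h', ← b0]; simp)
    (by rw [b2, d2f, ← b3]; simp) (by rw [b3, d2h, ← b2]; simp)
  have htr := D.htr
  rw [t_t, t_0, t_1, t_2] at htr
  have h4 : (2 : F) * 2 = 0 := by linear_combination htr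
  rcases mul_eq_zero.1 h4 with h5 | h5 <;> exact h2 h5

/-- signs -/
theorem signs (h2 : (2 : F) ≠ 0) (h3 : (3 : F) ≠ 0) {δ₁ δ₂ τ₁ τ₂ : F} (hδ₁ : δ₁ = 1 ∨ δ₁ = -1) (hδ₂ : δ₂ = 1 ∨ δ₂ = -1)
    (hτ₁ : τ₁ = 1 ∨ τ₁ = -1) (hτ₂ : τ₂ = 1 ∨ τ₂ = -1) (h : τ₁ + τ₂ = 2 * (δ₁ + δ₂)) : δ₂ = -δ₁ ∧ τ₂ = -τ₁ := by
  have h4 : (4 : F) ≠ 0 := by rw [show (4 : F) = 2 * 2 by norm_num]; exact mul_ne_zero h2 h2
  have h6 : (6 : F) ≠ 0 := by rw [show (6 : F) = 2 * 3 by norm_num]; exact mul_ne_zero h2 h3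
  rcases hδ₁ with rfl | rfl <;> rcases hδ₂ with rfl | rfl <;> rcases hτ₁ with rfl | rfl <;> rcases hτ₂ with rfl | rfl <;>
    first
    | exact ⟨by ring1, by ring1⟩
    | (exfalso; apply h2; linear_combination h)
    | (exfalso; apply h2; linear_combination -h)
    | (exfalso; apply h4; linear_combination h)
    | (exfalso; apply h4; linear_combination -h)
    | (exfalso; apply h6; linear_combination h)
    | (exfalso; apply h6; linear_combination -h)

/-- the normal form in dimension four, odd characteristic -/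
theorem Dat.exists_basis4 [FiniteDimensional F W] (D : Dat ω x d₀ d₁ d₂ t) (hW : Module.finrank F W = 4)
    (h2 : (2 : F) ≠ 0) : ∃ (b : Module.Basis (Fin 4) F W) (δ a c g k : F), (δ = 1 ∨ δ = -1) ∧
      (d₀ (b 0) = b 0 ∧ d₀ (b 1) = b 1 ∧ d₀ (b 2) = -b 2 ∧ d₀ (b 3) = -b 3) ∧
      (d₁ (b 0) = δ • b 0 ∧ d₁ (b 1) = -δ • b 1 ∧ d₁ (b 2) = b 3 ∧ d₁ (b 3) = b 2) ∧
      (d₂ (b 0) = δ • b 0 ∧ d₂ (b 1) = -δ • b 1 ∧ d₂ (b 2) = -b 3 ∧ d₂ (b 3) = -b 2) ∧
      (t (b 0) = b 0 ∧ t (b 1) = -b 1 ∧ t (b 2) = b 2 ∧ t (b 3) = -b 3) ∧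
      (x (b 0) = a • b 0 + g • b 2 ∧ x (b 1) = c • b 1 + k • b 3 ∧ x (b 2) = b 0 - a • b 2 ∧
        x (b 3) = b 1 - c • b 3) ∧ 3 * (g + a ^ 2) = 1 ∧ 3 * (k + c ^ 2) = -1 := by
  obtain ⟨e₁, he₁, h01, h11, -⟩ := D.exists_e1 (by omega) h2
  obtain ⟨f, h, -, hf0, hh0, tf, th, d0f, d0h, d1f, d1h, d2f, d2h⟩ := D.exists_fh h2 he₁ h01 h11
  have li0 : LinearIndependent F ![f, h] := li2 h2 hf0 hh0 tf th
  have key : ∀ v, d₀ v = -v → v ∈ Submodule.span F (Set.range ![f, h]) := by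
    intro v hv
    by_contra h3
    exact D.no_more hW h2 hf0 hh0 tf th d0f d0h d1f d1h d2f d2h h3 hv
  have outside : ∀ S' : Submodule F W, Submodule.span F (Set.range ![f, h]) ≤ S' → ∀ v, v ∉ S' →
      ∃ u, u ∉ S' ∧ d₀ u = u := by
    intro S' hS' v hv
    refine ⟨v + d₀ v, fun h3 => hv ?_, by rw [map_add, mul_ap D.h00, Module.End.one_apply]; abel⟩
    have h4 : v - d₀ v ∈ S' := by
      apply hS'
      apply key
      rw [map_sub, mul_ap D.h00, Module.End.one_apply]; abel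
    have h5 := S'.smul_mem (2 : F)⁻¹ (S'.add_mem h3 h4)
    have h6 : (2 : F)⁻¹ • (v + d₀ v + (v - d₀ v)) = v := by
      have : v + d₀ v + (v - d₀ v) = (2 : F) • v := by module
      rw [this, smul_smul, inv_mul_cancel₀ h2, one_smul]
    rwa [h6] at h5
  obtain ⟨v₁, hv₁⟩ := exists_notMem (F := F) ![f, h] (by rw [hW]; norm_num)
  obtain ⟨v₁', hv₁', hv₁0⟩ := outside _ le_rfl _ hv₁
  obtain ⟨u₁, hu₁, u₁0, ⟨δ₁, hδ₁, u₁1, u₁2⟩, τ₁, hτ₁, u₁t⟩ := D.joint h2 hv₁' hv₁0
  have li1 : LinearIndependent F ![u₁, f, h] := linearIndependent_finCons.2 ⟨li0, hu₁⟩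
  obtain ⟨v₂, hv₂⟩ := exists_notMem (F := F) ![u₁, f, h] (by rw [hW]; norm_num)
  have hle : Submodule.span F (Set.range ![f, h]) ≤ Submodule.span F (Set.range ![u₁, f, h]) := by
    apply Submodule.span_le.2
    rintro _ ⟨i, rfl⟩
    fin_cases i
    · exact Submodule.subset_span ⟨1, rfl⟩
    · exact Submodule.subset_span ⟨2, rfl⟩
  obtain ⟨v₂', hv₂', hv₂0⟩ := outside _ hle _ hv₂
  obtain ⟨u₂, hu₂, u₂0, ⟨δ₂, hδ₂, u₂1, u₂2⟩, τ₂, hτ₂, u₂t⟩ := D.joint h2 hv₂' hv₂0
  have li : LinearIndependent F ![u₂, u₁, f, h] := linearIndependent_finCons.2 ⟨li1, hu₂⟩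
  -- traces
  have hsg : δ₂ = -δ₁ ∧ τ₂ = -τ₁ := by
    obtain ⟨b, hb⟩ : ∃ b : Module.Basis (Fin 4) F W, ⇑b = ![u₂, u₁, f, h] :=
      ⟨basisOfLinearIndependentOfCardEqFinrank li (by rw [Fintype.card_fin, hW]),
        coe_basisOfLinearIndependentOfCardEqFinrank _ _⟩
    have b0 : b 0 = u₂ := by rw [hb]; rfl
    have b1 : b 1 = u₁ := by rw [hb]; rfl
    have b2 : b 2 = f := by rw [hb]; rfl
    have b3 : b 3 = h := by rw [hb]; rfl
    have t_t := trace4 b t τ₂ τ₁ 1 (-1) (by rw [b0, u₂t, ← b0]; simp) (by rw [b1, u₁t, ← b1]; simp)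
      (by rw [b2, tf, ← b2]; simp) (by rw [b3, th, ← b3]; simp)
    have t_0 := trace4 b d₀ 1 1 (-1) (-1) (by rw [b0, u₂0, ← b0]; simp) (by rw [b1, u₁0, ← b1]; simp)
      (by rw [b2, d0f, ← b2]; simp) (by rw [b3, d0h, ← b3]; simp)
    have t_1 := trace4 b d₁ δ₂ δ₁ 0 0 (by rw [b0, u₂1, ← b0]; simp) (by rw [b1, u₁1, ← b1]; simp)
      (by rw [b2, d1f, ← b3]; simp) (by rw [b3, d1h, ← b2]; simp)
    have t_2 := trace4 b d₂ δ₂ δ₁ 0 0 (by rw [b0, u₂2, ← b0]; simp) (by rw [b1, u₁2, ← b1]; simp)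
      (by rw [b2, d2f, ← b3]; simp) (by rw [b3, d2h, ← b2]; simp)
    have htr := D.htr
    rw [t_t, t_0, t_1, t_2] at htr
    exact signs h2 D.h3 hδ₁ hδ₂ hτ₁ hτ₂ (by linear_combination htr)
  obtain ⟨hδ, hτ⟩ := hsg
  -- arrange `t p = p`, `t q = -q`
  obtain ⟨p, q, δ, hδ', p0, q0, p1, q1, p2, q2, pt, qt, lpq⟩ : ∃ (p q : W) (δ : F), (δ = 1 ∨ δ = -1) ∧ d₀ p = p ∧
      d₀ q = q ∧ d₁ p = δ • p ∧ d₁ q = -δ • q ∧ d₂ p = δ • p ∧ d₂ q = -δ • q ∧ t p = p ∧ t q = -q ∧
      LinearIndependent F ![p, q, f, h] := by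
    rcases hτ₁ with h3 | h3
    · rw [h3] at u₁t hτ
      refine ⟨u₁, u₂, δ₁, hδ₁, u₁0, u₂0, u₁1, by rw [u₂1, hδ], u₁2, by rw [u₂2, hδ], by rw [u₁t, one_smul],
        by rw [u₂t, hτ, neg_smul, one_smul], ?_⟩
      have := li.comp ![1, 0, 2, 3] (by decide)
      convert this using 1
      funext i
      fin_cases i <;> rfl
    · rw [h3, neg_neg] at hτ
      rw [h3] at u₁t
      refine ⟨u₂, u₁, δ₂, hδ₂, u₂0, u₁0, u₂1, by rw [u₁1, hδ, neg_neg], u₂2, by rw [u₁2, hδ, neg_neg],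
        by rw [u₂t, hτ, one_smul], by rw [u₁t, neg_smul, one_smul], li⟩
  clear u₁0 u₂0 u₁1 u₂1 u₁2 u₂2 u₁t u₂t hδ hτ li hu₂ li1 hu₁
  have expand : ∀ w, ∃ r₀ r₁ r₂ r₃ : F, w = r₀ • p + r₁ • q + r₂ • f + r₃ • h := by
    intro w
    obtain ⟨b, hb⟩ : ∃ b : Module.Basis (Fin 4) F W, ⇑b = ![p, q, f, h] :=
      ⟨basisOfLinearIndependentOfCardEqFinrank lpq (by rw [Fintype.card_fin, hW]),
        coe_basisOfLinearIndependentOfCardEqFinrank _ _⟩
    have h3 := b.sum_repr w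
    rw [Fin.sum_univ_four, hb] at h3
    exact ⟨_, _, _, _, h3.symm⟩
  have indep : ∀ r₀ r₁ r₂ r₃ : F, r₀ • p + r₁ • q + r₂ • f + r₃ • h = 0 → r₀ = 0 ∧ r₁ = 0 ∧ r₂ = 0 ∧ r₃ = 0 := by
    intro r₀ r₁ r₂ r₃ e
    have h3 := Fintype.linearIndependent_iff.1 lpq ![r₀, r₁, r₂, r₃] (by rw [Fin.sum_univ_four]; exact e)
    exact ⟨h3 0, h3 1, h3 2, h3 3⟩
  have xx : ∀ w, (3 : F) • x (x w) = t w := fun w => (congrArg (fun T : Module.End F W => T w) D.ht).symm
  have xt' : ∀ w, t (x w) = x (t w) := fun w => congrArg (fun T : Module.End F W => T w) D.xt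
  have plus : ∀ w, t w = w → ∃ r s : F, w = r • p + s • f := by
    intro w hw
    obtain ⟨r₀, r₁, r₂, r₃, h3⟩ := expand w
    rw [h3] at hw
    simp only [map_add, map_smul, pt, qt, tf, th] at hw
    have h5 : (0 : F) • p + (2 * r₁) • q + (0 : F) • f + (2 * r₃) • h = 0 := by
      have : (0 : F) • p + (2 * r₁) • q + (0 : F) • f + (2 * r₃) • h =
        (r₀ • p + r₁ • q + r₂ • f + r₃ • h) - (r₀ • p + r₁ • -q + r₂ • f + r₃ • -h) := by module
      rw [this, hw, sub_self]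
    obtain ⟨-, h6, -, h7⟩ := indep _ _ _ _ h5
    refine ⟨r₀, r₂, ?_⟩
    rw [h3, (mul_eq_zero.1 h6).resolve_left h2, (mul_eq_zero.1 h7).resolve_left h2]
    module
  have minus : ∀ w, t w = -w → ∃ r s : F, w = r • q + s • h := by
    intro w hw
    obtain ⟨r₀, r₁, r₂, r₃, h3⟩ := expand w
    rw [h3] at hw
    simp only [map_add, map_smul, pt, qt, tf, th] at hw
    have h5 : (2 * r₀) • p + (0 : F) • q + (2 * r₂) • f + (0 : F) • h = 0 := by
      have : (2 * r₀) • p + (0 : F) • q + (2 * r₂) • f + (0 : F) • h =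
        (r₀ • p + r₁ • -q + r₂ • f + r₃ • -h) - -(r₀ • p + r₁ • q + r₂ • f + r₃ • h) := by module
      rw [this, hw, sub_self]
    obtain ⟨h6, -, h7, -⟩ := indep _ _ _ _ h5
    refine ⟨r₁, r₃, ?_⟩
    rw [h3, (mul_eq_zero.1 h6).resolve_left h2, (mul_eq_zero.1 h7).resolve_left h2]
    module
  obtain ⟨β, ρ, hβ⟩ := plus (x f) (by rw [xt', tf])
  obtain ⟨a, g, ha⟩ := plus (x p) (by rw [xt', pt])
  obtain ⟨β', ρ', hβ'⟩ := minus (x h) (by rw [xt', th, map_neg])
  obtain ⟨c, k, hc⟩ := minus (x q) (by rw [xt', qt, map_neg])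
  have small : ∀ u : W, Submodule.span F (Set.range ![u, f, h]) ≠ ⊤ := by
    intro u h3
    have h4 := finrank_range_le_card (R := F) ![u, f, h]
    rw [Fintype.card_fin, Set.finrank, h3, finrank_top] at h4
    omega
  have big : ∀ u : W, Submodule.span F (Set.range ![u, f, h]) ≠ ⊥ := by
    intro u h3
    have h4 : f ∈ Submodule.span F (Set.range ![u, f, h]) := Submodule.subset_span ⟨1, rfl⟩
    rw [h3, Submodule.mem_bot] at h4
    exact hf0 h4
  have hβ0 : β ≠ 0 := by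
    intro h0
    rw [h0, zero_smul, zero_add] at hβ
    have m0 : q ∈ Submodule.span F (Set.range ![q, f, h]) := Submodule.subset_span ⟨0, rfl⟩
    have m1 : f ∈ Submodule.span F (Set.range ![q, f, h]) := Submodule.subset_span ⟨1, rfl⟩
    have m2 : h ∈ Submodule.span F (Set.range ![q, f, h]) := Submodule.subset_span ⟨2, rfl⟩
    rcases D.irr _ (span_inv (v := ![q, f, h]) x fun i => by
        fin_cases i
        · show x q ∈ _
          rw [hc]; exact add_mem (Submodule.smul_mem _ _ m0) (Submodule.smul_mem _ _ m2)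
        · show x f ∈ _
          rw [hβ]; exact Submodule.smul_mem _ _ m1
        · show x h ∈ _
          rw [hβ']; exact add_mem (Submodule.smul_mem _ _ m0) (Submodule.smul_mem _ _ m2))
      (span_inv (v := ![q, f, h]) d₀ fun i => by
        fin_cases i
        · show d₀ q ∈ _
          rw [q0]; exact m0
        · show d₀ f ∈ _
          rw [d0f]; exact neg_mem m1
        · show d₀ h ∈ _
          rw [d0h]; exact neg_mem m2)
      (span_inv (v := ![q, f, h]) d₁ fun i => by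
        fin_cases i
        · show d₁ q ∈ _
          rw [q1]; exact Submodule.smul_mem _ _ m0
        · show d₁ f ∈ _
          rw [d1f]; exact m2
        · show d₁ h ∈ _
          rw [d1h]; exact m1)
      (span_inv (v := ![q, f, h]) d₂ fun i => by
        fin_cases i
        · show d₂ q ∈ _
          rw [q2]; exact Submodule.smul_mem _ _ m0
        · show d₂ f ∈ _
          rw [d2f]; exact neg_mem m2
        · show d₂ h ∈ _
          rw [d2h]; exact neg_mem m1) with h3 | h3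
    · exact big _ h3
    · exact small _ h3
  have hβ0' : β' ≠ 0 := by
    intro h0
    rw [h0, zero_smul, zero_add] at hβ'
    have m0 : p ∈ Submodule.span F (Set.range ![p, f, h]) := Submodule.subset_span ⟨0, rfl⟩
    have m1 : f ∈ Submodule.span F (Set.range ![p, f, h]) := Submodule.subset_span ⟨1, rfl⟩
    have m2 : h ∈ Submodule.span F (Set.range ![p, f, h]) := Submodule.subset_span ⟨2, rfl⟩
    rcases D.irr _ (span_inv (v := ![p, f, h]) x fun i => by
        fin_cases i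
        · show x p ∈ _
          rw [ha]; exact add_mem (Submodule.smul_mem _ _ m0) (Submodule.smul_mem _ _ m1)
        · show x f ∈ _
          rw [hβ]; exact add_mem (Submodule.smul_mem _ _ m0) (Submodule.smul_mem _ _ m1)
        · show x h ∈ _
          rw [hβ']; exact Submodule.smul_mem _ _ m2)
      (span_inv (v := ![p, f, h]) d₀ fun i => by
        fin_cases i
        · show d₀ p ∈ _
          rw [p0]; exact m0
        · show d₀ f ∈ _
          rw [d0f]; exact neg_mem m1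
        · show d₀ h ∈ _
          rw [d0h]; exact neg_mem m2)
      (span_inv (v := ![p, f, h]) d₁ fun i => by
        fin_cases i
        · show d₁ p ∈ _
          rw [p1]; exact Submodule.smul_mem _ _ m0
        · show d₁ f ∈ _
          rw [d1f]; exact m2
        · show d₁ h ∈ _
          rw [d1h]; exact m1)
      (span_inv (v := ![p, f, h]) d₂ fun i => by
        fin_cases i
        · show d₂ p ∈ _
          rw [p2]; exact Submodule.smul_mem _ _ m0
        · show d₂ f ∈ _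
          rw [d2f]; exact neg_mem m2
        · show d₂ h ∈ _
          rw [d2h]; exact neg_mem m1) with h3 | h3
    · exact big _ h3
    · exact small _ h3
  -- the relations of `x`
  have r1 := xx f
  rw [hβ, map_add, map_smul, map_smul, ha, hβ, tf] at r1
  have r1' : (3 * (β * a + ρ * β)) • p + (0 : F) • q + (3 * (β * g + ρ * ρ) - 1) • f + (0 : F) • h = 0 := by
    have : (3 * (β * a + ρ * β)) • p + (0 : F) • q + (3 * (β * g + ρ * ρ) - 1) • f + (0 : F) • h =
      (3 : F) • (β • (a • p + g • f) + ρ • (β • p + ρ • f)) - f := by module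
    rw [this, r1, sub_self]
  obtain ⟨s1, -, s2, -⟩ := indep _ _ _ _ r1'
  have hρ : ρ = -a := by
    have h3 := (mul_eq_zero.1 s1).resolve_left D.h3
    have h4 : β * (a + ρ) = 0 := by linear_combination h3
    linear_combination (mul_eq_zero.1 h4).resolve_left hβ0
  subst hρ
  have r2 := xx h
  rw [hβ', map_add, map_smul, map_smul, hc, hβ', th] at r2
  have r2' : (0 : F) • p + (3 * (β' * c + ρ' * β')) • q + (0 : F) • f + (3 * (β' * k + ρ' * ρ') + 1) • h = 0 := by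
    have : (0 : F) • p + (3 * (β' * c + ρ' * β')) • q + (0 : F) • f + (3 * (β' * k + ρ' * ρ') + 1) • h =
      (3 : F) • (β' • (c • q + k • h) + ρ' • (β' • q + ρ' • h)) - -h := by module
    rw [this, r2, sub_self]
  obtain ⟨-, s3, -, s4⟩ := indep _ _ _ _ r2'
  have hρ' : ρ' = -c := by
    have h3 := (mul_eq_zero.1 s3).resolve_left D.h3
    have h4 : β' * (c + ρ') = 0 := by linear_combination h3
    linear_combination (mul_eq_zero.1 h4).resolve_left hβ0'
  subst hρ'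
  have lfin : LinearIndependent F ![β • p, β' • q, f, h] := by
    rw [Fintype.linearIndependent_iff]
    intro r hr
    rw [Fin.sum_univ_four] at hr
    have hr' : r 0 • β • p + r 1 • β' • q + r 2 • f + r 3 • h = 0 := hr
    rw [smul_smul, smul_smul] at hr'
    obtain ⟨k0, k1, k2, k3⟩ := indep _ _ _ _ hr'
    intro i
    fin_cases i
    exacts [(mul_eq_zero.1 k0).resolve_right hβ0, (mul_eq_zero.1 k1).resolve_right hβ0', k2, k3]
  obtain ⟨b, hb⟩ : ∃ b : Module.Basis (Fin 4) F W, ⇑b = ![β • p, β' • q, f, h] :=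
    ⟨basisOfLinearIndependentOfCardEqFinrank lfin (by rw [Fintype.card_fin, hW]),
      coe_basisOfLinearIndependentOfCardEqFinrank _ _⟩
  have b0 : b 0 = β • p := by rw [hb]; rfl
  have b1 : b 1 = β' • q := by rw [hb]; rfl
  have b2 : b 2 = f := by rw [hb]; rfl
  have b3 : b 3 = h := by rw [hb]; rfl
  refine ⟨b, δ, a, c, β * g, β' * k, hδ', ?_⟩
  rw [b0, b1, b2, b3]
  refine ⟨⟨by rw [map_smul, p0], by rw [map_smul, q0], d0f, d0h⟩,
    ⟨by rw [map_smul, p1, smul_comm], by rw [map_smul, q1, smul_comm], d1f, d1h⟩,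
    ⟨by rw [map_smul, p2, smul_comm], by rw [map_smul, q2, smul_comm], d2f, d2h⟩,
    ⟨by rw [map_smul, pt], by rw [map_smul, qt, smul_neg], tf, th⟩,
    ⟨by rw [map_smul, ha]; module, by rw [map_smul, hc]; module, by rw [hβ]; module, by rw [hβ']; module⟩,
    by linear_combination s2, by linear_combination s4⟩

set_option maxHeartbeats 2000000 in
/-- **Dimension four is impossible in odd characteristic.** -/
theorem Dat.four_odd [FiniteDimensional F W] (D : Dat ω x d₀ d₁ d₂ t) (hW : Module.finrank F W = 4)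
    (h2 : (2 : F) ≠ 0) : False := by
  obtain ⟨b, δ, a, c, g, k, hδ, ⟨a00, a01, a02, a03⟩, ⟨a10, a11, a12, a13⟩, ⟨a20, a21, a22, a23⟩,
    ⟨at0, at1, at2, at3⟩, ⟨ax0, ax1, ax2, ax3⟩, hg, hk⟩ := D.exists_basis4 hW h2
  obtain ⟨y₀, y₁, y₂, hy0, hy1, hy2, E0, E1, E2⟩ := r6_entries' D.hω D.ht D.tt D.h00 D.h11 D.h22 D.r6
  have h3 := D.h3
  let M := LinearMap.toMatrixAlgEquiv b
  have X : M x = !![a, 0, 1, 0; 0, c, 0, 1; g, 0, -a, 0; 0, k, 0, -c] := by
    ext i j
    rw [LinearMap.toMatrixAlgEquiv_apply]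
    fin_cases j <;> fin_cases i <;> simp [ax0, ax1, ax2, ax3]
  have T : M t = !![1, 0, 0, 0; 0, -1, 0, 0; 0, 0, 1, 0; 0, 0, 0, -1] := by
    ext i j
    rw [LinearMap.toMatrixAlgEquiv_apply]
    fin_cases j <;> fin_cases i <;> simp [at0, at1, at2, at3]
  have D0 : M d₀ = !![1, 0, 0, 0; 0, 1, 0, 0; 0, 0, -1, 0; 0, 0, 0, -1] := by
    ext i j
    rw [LinearMap.toMatrixAlgEquiv_apply]
    fin_cases j <;> fin_cases i <;> simp [a00, a01, a02, a03]
  have D1 : M d₁ = !![δ, 0, 0, 0; 0, -δ, 0, 0; 0, 0, 0, 1; 0, 0, 1, 0] := by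
    ext i j
    rw [LinearMap.toMatrixAlgEquiv_apply]
    fin_cases j <;> fin_cases i <;> simp [a10, a11, a12, a13]
  have D2 : M d₂ = !![δ, 0, 0, 0; 0, -δ, 0, 0; 0, 0, 0, -1; 0, 0, -1, 0] := by
    ext i j
    rw [LinearMap.toMatrixAlgEquiv_apply]
    fin_cases j <;> fin_cases i <;> simp [a20, a21, a22, a23]
  obtain ⟨θ, hθ⟩ : ∃ θ, θ = ω - ω ^ 2 := ⟨_, rfl⟩
  have hθ2 : θ ^ 2 = -3 := by rw [hθ]; linear_combination (ω ^ 2 - 3 * ω + 3) * D.hω
  have hω := D.hω
  have M0 : M (d₀ + d₁ + d₂) = !![1 + 2 * δ, 0, 0, 0; 0, 1 - 2 * δ, 0, 0; 0, 0, -1, 0; 0, 0, 0, -1] := by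
    rw [map_add, map_add, D0, D1, D2]
    ext i j
    fin_cases i <;> fin_cases j <;> simp <;> ring
  have M1 : M (d₀ + ω ^ 2 • d₁ + ω • d₂) =
      !![1 - δ, 0, 0, 0; 0, 1 + δ, 0, 0; 0, 0, -1, -θ; 0, 0, -θ, -1] := by
    rw [map_add, map_add, map_smul, map_smul, D0, D1, D2]
    ext i j
    fin_cases i <;> fin_cases j <;> simp <;>
      first
      | linear_combination δ * hω
      | linear_combination -δ * hω
      | linear_combination hθ
      | linear_combination -hθ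
  have M2 : M (d₀ + ω • d₁ + ω ^ 2 • d₂) =
      !![1 - δ, 0, 0, 0; 0, 1 + δ, 0, 0; 0, 0, -1, θ; 0, 0, θ, -1] := by
    rw [map_add, map_add, map_smul, map_smul, D0, D1, D2]
    ext i j
    fin_cases i <;> fin_cases j <;> simp <;>
      first
      | linear_combination δ * hω
      | linear_combination -δ * hω
      | linear_combination hθ
      | linear_combination -hθ
  have hg' : 3 * g + 3 * a ^ 2 - 1 = 0 := by linear_combination hg
  have hk' : 3 * k + 3 * c ^ 2 + 1 = 0 := by linear_combination hk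
  have ht' : θ ^ 2 + 3 = 0 := by linear_combination hθ2
  have n9 : (9 : F) ≠ 0 := by rw [show (9 : F) = 3 * 3 by norm_num]; exact mul_ne_zero h3 h3
  rcases hδ with rfl | rfl
  · have Y0 : M y₀ = !![3 * a ^ 2 - g, 0, 4 * a, 0; 0, c ^ 2 + k, 0, 0; 4 * a * g, 0, 3 * g - a ^ 2, 0;
        0, 0, 0, c ^ 2 + k] := by
      rw [hy0, map_mul, map_mul, map_mul, M0, X, T]
      ext i j
      fin_cases i <;> fin_cases j <;> simp [Matrix.mul_apply, Fin.sum_univ_four] <;> ring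
    have Y1 : M y₁ = !![-g, k * θ, a, -(c * θ); -(g * θ), k - 2 * c ^ 2, a * θ, -(3 * c);
        a * g, -(a * k * θ), -a ^ 2, a * c * θ; c * g * θ, -(3 * c * k), -(a * c * θ), c ^ 2 - 2 * k] := by
      rw [hy1, map_mul, map_mul, map_mul, M1, X, T]
      ext i j
      fin_cases i <;> fin_cases j <;> simp [Matrix.mul_apply, Fin.sum_univ_four] <;> ring
    have Y2 : M y₂ = !![-g, -(k * θ), a, c * θ; g * θ, k - 2 * c ^ 2, -(a * θ), -(3 * c);
        a * g, a * k * θ, -a ^ 2, -(a * c * θ); -(c * g * θ), -(3 * c * k), a * c * θ, c ^ 2 - 2 * k] := by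
      rw [hy2, map_mul, map_mul, map_mul, M2, X, T]
      ext i j
      fin_cases i <;> fin_cases j <;> simp [Matrix.mul_apply, Fin.sum_univ_four] <;> ring
    have E0' := congrArg M E0
    have E1' := congrArg M E1
    have E2' := congrArg M E2
    rw [map_mul, map_mul, map_mul, map_add, map_add, map_mul, map_mul, map_mul, map_mul, map_mul, map_mul, Y0, Y1, Y2,
      D0, D1, D2, T] at E0' E1' E2'
    have F1 := congrFun (congrFun E1' 1) 3
    have F2 := congrFun (congrFun E2' 1) 3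
    have F3 := congrFun (congrFun E0' 0) 2
    have F4 := congrFun (congrFun E1' 1) 1
    simp [Matrix.mul_apply, Fin.sum_univ_four] at F1 F2 F3 F4
    have G1 : 9 * a ^ 2 * c - 4 * a * θ - 27 * c ^ 3 - 3 * c = 0 := by
      linear_combination 3 * F1 - 3 * c * g * ht' + 3 * c * hg' - a * θ * hk'
    have G2 : 9 * a ^ 2 * c + 2 * a * θ - 27 * c ^ 3 - 21 * c = 0 := by
      linear_combination 3 * F2 - 3 * c * g * ht' + 3 * c * hg' + (2 * a * θ - 9 * c) * hk'
    have G3 : -34 * a ^ 3 + 4 * a ^ 2 * c * θ - 6 * a * c ^ 2 = 0 := by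
      linear_combination F3 + 2 * a * k * ht' - 6 * a * hg' - 2 * a * hk'
    have G4 : 27 * a ^ 2 * c ^ 2 + 9 * a ^ 2 - 81 * c ^ 4 - 1 = 0 := by
      linear_combination 9 * F4 + 9 * g * k * ht' - 9 * k * hg' + (9 * a ^ 2 - 15 * c ^ 2 + 3 * k - 1) * hk'
    have G5 : a * θ = 3 * c := by
      have h6 : (2 * 3) * (a * θ - 3 * c) = 0 := by linear_combination G2 - G1
      linear_combination (mul_eq_zero.1 h6).resolve_left (mul_ne_zero h2 h3)
    have G6 : a ^ 2 = -(3 * c ^ 2) := by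
      have h6 : 3 * (a ^ 2 + 3 * c ^ 2) = 0 := by
        linear_combination a ^ 2 * ht' - (a * θ + 3 * c) * G5
      linear_combination (mul_eq_zero.1 h6).resolve_left h3
    have G7 : (2 * 2 * (3 * 3 * 3)) * (a * c ^ 2) = 0 := by
      linear_combination G3 - 4 * a * c * G5 + 34 * a * G6
    have G8 := (mul_eq_zero.1 G7).resolve_left (mul_ne_zero (mul_ne_zero h2 h2) (mul_ne_zero (mul_ne_zero h3 h3) h3))
    have hc0 : c = 0 := by
      rcases mul_eq_zero.1 G8 with h6 | h6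
      · have h7 : 3 * c = 0 := by rw [← G5, h6, zero_mul]
        exact (mul_eq_zero.1 h7).resolve_left h3
      · exact pow_eq_zero_iff (two_ne_zero) |>.1 h6
    have ha0 : a ^ 2 = 0 := by rw [G6, hc0]; ring
    rw [hc0] at G4
    exact one_ne_zero (α := F) (by linear_combination 9 * ha0 - G4)
  · have Y0 : M y₀ = !![-a ^ 2 - g, 0, 0, 0; 0, k - 3 * c ^ 2, 0, -(4 * c); 0, 0, -a ^ 2 - g, 0;
        0, -(4 * c * k), 0, c ^ 2 - 3 * k] := by
      rw [hy0, map_mul, map_mul, map_mul, M0, X, T]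
      ext i j
      fin_cases i <;> fin_cases j <;> simp [Matrix.mul_apply, Fin.sum_univ_four] <;> ring
    have Y1 : M y₁ = !![2 * a ^ 2 - g, k * θ, 3 * a, -(c * θ); -(g * θ), k, a * θ, -c;
        3 * a * g, -(a * k * θ), 2 * g - a ^ 2, a * c * θ; c * g * θ, -(c * k), -(a * c * θ), c ^ 2] := by
      rw [hy1, map_mul, map_mul, map_mul, M1, X, T]
      ext i j
      fin_cases i <;> fin_cases j <;> simp [Matrix.mul_apply, Fin.sum_univ_four] <;> ring
    have Y2 : M y₂ = !![2 * a ^ 2 - g, -(k * θ), 3 * a, c * θ; g * θ, k, -(a * θ), -c;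
        3 * a * g, a * k * θ, 2 * g - a ^ 2, -(a * c * θ); -(c * g * θ), -(c * k), a * c * θ, c ^ 2] := by
      rw [hy2, map_mul, map_mul, map_mul, M2, X, T]
      ext i j
      fin_cases i <;> fin_cases j <;> simp [Matrix.mul_apply, Fin.sum_univ_four] <;> ring
    have E0' := congrArg M E0
    have E1' := congrArg M E1
    have E2' := congrArg M E2
    rw [map_mul, map_mul, map_mul, map_add, map_add, map_mul, map_mul, map_mul, map_mul, map_mul, map_mul, Y0, Y1, Y2,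
      D0, D1, D2, T] at E0' E1' E2'
    have F1 := congrFun (congrFun E2' 1) 3
    have F2 := congrFun (congrFun E1' 1) 3
    have F3 := congrFun (congrFun E1' 0) 2
    have F4 := congrFun (congrFun E0' 0) 2
    have F5 := congrFun (congrFun E1' 2) 2
    simp [Matrix.mul_apply, Fin.sum_univ_four] at F1 F2 F3 F4 F5
    have G1 : -3 * a ^ 2 * c - 4 * a * c ^ 2 * θ + 13 * c ^ 3 + 5 * c = 0 := by
      linear_combination F1 + c * g * ht' - c * hg' + 3 * c * hk'
    have G2 : -3 * a ^ 2 * c - 4 * a * c ^ 2 * θ - 2 * a * θ + 13 * c ^ 3 + 3 * c = 0 := by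
      linear_combination F2 + c * g * ht' - c * hg' - (a * θ - 2 * c) * hk'
    have G3 : 27 * a ^ 3 - 9 * a * c ^ 2 - 3 * a + 2 * c * θ = 0 := by
      linear_combination 3 * F3 + 3 * a * k * ht' + c * θ * hg' - 3 * a * hk'
    have G4 : 54 * a ^ 3 + 36 * a ^ 2 * c * θ + 18 * a * c ^ 2 - 4 * c * θ = 0 := by
      linear_combination 3 * F4 - 6 * a * k * ht' + (6 * a + 4 * c * θ) * hg' + 6 * a * hk'
    have G5 : -81 * a ^ 4 + 27 * a ^ 2 * c ^ 2 + 45 * a ^ 2 + 6 * a * c * θ - 2 = 0 := by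
      linear_combination 9 * F5 - 9 * a ^ 2 * k * ht' - (30 * a ^ 2 - 3 * a * c * θ - 6 * g - 2) * hg' + 9 * a ^ 2 * hk'
    have G6 : c = -(a * θ) := by
      have h6 : 2 * (a * θ + c) = 0 := by linear_combination G1 - G2
      linear_combination (mul_eq_zero.1 h6).resolve_left h2
    have G7 : c ^ 2 = -(3 * a ^ 2) := by rw [G6]; linear_combination a ^ 2 * ht'
    have G8 : c * θ = 3 * a := by rw [G6]; linear_combination -a * ht'
    have G9 : 18 * a ^ 3 + a = 0 := by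
      have h6 : 3 * (18 * a ^ 3 + a) = 0 := by linear_combination G3 + 9 * a * G7 - 2 * G8
      exact (mul_eq_zero.1 h6).resolve_left h3
    have G10 : (2 * 3 * 3) * a = 0 := by
      linear_combination -G4 + 36 * a ^ 2 * G8 + 18 * a * G7 - 4 * G8 + 6 * G9
    have ha0 : a = 0 := (mul_eq_zero.1 G10).resolve_left (mul_ne_zero (mul_ne_zero h2 h3) h3)
    rw [ha0] at G5
    exact h2 (by linear_combination -G5)

end odd

end Cfsg.Agent.H637.Three
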