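import Cfsg.Agent.H637.A7Twelve

/-!
# `3.A₇` in dimension twelve, characteristic two (helper637)
-/

set_option autoImplicit false
set_option linter.unusedSectionVars false
set_option linter.unusedSimpArgs false
set_option maxHeartbeats 2000000

namespace Cfsg.Agent.H637.Three

open Matrix
open Cfsg.Agent.H915.A7Old (a3 b3 dg gm rm fin3 ext3 omega_cube omega_ne mul3 gm_mul_gm gm_entries dg_entries rm_entries)

section two

variable {F W : Type*} [Field F] [AddCommGroup W] [Module F W] {ω : F} {x d₀ d₁ d₂ t : Module.End F W}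

theorem two_fin (h2 : (2 : F) = 0) (hω : ω ^ 2 + ω + 1 = 0) {m n r s c : F}
    {X T D0 D1 D2 Y0 Y1 Y2 : Matrix (Fin 4) (Fin 4) F}
    (hX : X = !![1, 1, 0, 0; 0, 1, 1, 0; 0, 0, 1, 1; 0, 0, 0, 1])
    (hT : T = !![1, 0, 1, 0; 0, 1, 0, 1; 0, 0, 1, 0; 0, 0, 0, 1])
    (hD0 : D0 = !![1, 0, m * c, 0;
      c, 1, n + r + c, m * c;
      0, 0, 1, 0;
      0, 0, c, 1])
    (hD1 : D1 = !![m * c + 1, 0, m * r, m ^ 2 * c;
      n, 1, s, m * n;
      0, 0, 1, 0;
      c, 0, r, m * c + 1])
    (hD2 : D2 = !![m * c + 1, 0, m * r + m * c, m ^ 2 * c;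
      n + c, 1, n + r + s + c, m * n + m * c;
      0, 0, 1, 0;
      c, 0, r + c, m * c + 1])
    (hY0 : Y0 = X * (D0 + D1 + D2) * (X * T)) (hY1 : Y1 = X * (D0 + ω ^ 2 • D1 + ω • D2) * (X * T))
    (hY2 : Y2 = X * (D0 + ω • D1 + ω ^ 2 • D2) * (X * T))
    (E : D0 * Y0 * D0 = T * (Y0 * D0 * Y0 + Y2 * D1 * Y1 + Y1 * D2 * Y2)) : c = 0 := by
  have Z0 : Y0 = !![1, 0, 0, 0;
      0, 1, 0, 0;
      0, 0, 1, 0;
      0, 0, 0, 1] := by
    rw [hY0, hX, hT, hD0, hD1, hD2]
    ext i j
    fin_cases i <;> fin_cases j <;> simp [Matrix.mul_apply, Fin.sum_univ_four]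
    · linear_combination (1 * m * c + 1 * n + 1 * c + 1) * h2
    · linear_combination (1 * m * c + 1 * n + 1 * c + 3) * h2
    · linear_combination (1 * m * r + 2 * m * c + 2 * n + 1 * r + 1 * s + 2 * c + 3) * h2
    · linear_combination (1 * m ^ 2 * c + 1 * m * n + 1 * m * r + 3 * m * c + 2 * n + 1 * r + 1 * s + 2 * c + 3) * h2
    · linear_combination (1 * n + 1 * c) * h2
    · linear_combination (1 * n + 1 * c + 1) * h2
    · linear_combination (2 * n + 1 * r + 1 * s + 2 * c + 3) * h2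
    · linear_combination (1 * m * n + 1 * m * c + 2 * n + 1 * r + 1 * s + 2 * c + 3) * h2
    · linear_combination (1 * c) * h2
    · linear_combination (1 * c) * h2
    · linear_combination (1 * r + 2 * c + 1) * h2
    · linear_combination (1 * m * c + 1 * r + 2 * c + 3) * h2
    · linear_combination (1 * c) * h2
    · linear_combination (1 * c) * h2
    · linear_combination (1 * r + 2 * c) * h2
    · linear_combination (1 * m * c + 1 * r + 2 * c + 1) * h2
  have Z1 : Y1 = !![m * c + n + c * ω + c, m * c + n + c * ω + c, m * r + m * c * ω + n * ω + r * ω + r + s, m ^ 2 * c + m * n + m * r + m * c + n * ω + r * ω + r + s;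
      n + c * ω + c, n + c * ω + c, n * ω + r * ω + r + s, m * n + m * c * ω + m * c + n * ω + r * ω + r + s;
      c, c, r + c * ω, m * c + r + c * ω;
      c, c, r + c * ω, m * c + r + c * ω] := by
    rw [hY1, hX, hT, hD0, hD1, hD2]
    ext i j
    fin_cases i <;> fin_cases j <;> simp [Matrix.mul_apply, Fin.sum_univ_four]
    · linear_combination ((-1) * m * c + (-1) * n) * h2 + (1 * m * c + 1 * n + 1) * hω
    · linear_combination ((-1) * m * c + (-1) * n) * h2 + (1 * m * c + 1 * n + 2) * hω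
    · linear_combination ((-1) * m * r + (-1) * s + 1 * c * ω + 1 * c) * h2 + (1 * m * r + 1 * m * c + 1 * n + 1 * s + 2) * hω
    · linear_combination ((-1) * m ^ 2 * c + (-1) * m * n + (-1) * m * r + 1 * m * c * ω + (-1) * s + 1 * c * ω + 1 * c) * h2 + (1 * m ^ 2 * c + 1 * m * n + 1 * m * r + 1 * m * c + 1 * n + 1 * s + 2) * hω
    · linear_combination ((-1) * n) * h2 + (1 * n) * hω
    · linear_combination ((-1) * n) * h2 + (1 * n + 1) * hω
    · linear_combination ((-1) * s + 1 * c * ω + 1 * c) * h2 + (1 * n + 1 * s + 2) * hω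
    · linear_combination ((-1) * m * n + (-1) * s + 1 * c * ω + 1 * c) * h2 + (1 * m * n + 1 * n + 1 * s + 2) * hω
    · linear_combination ((-1) * c) * h2 + (1 * c) * hω
    · linear_combination ((-1) * c) * h2 + (1 * c) * hω
    · linear_combination ((-1) * r) * h2 + (1 * r + 1 * c + 1) * hω
    · linear_combination ((-1) * m * c + (-1) * r) * h2 + (1 * m * c + 1 * r + 1 * c + 2) * hω
    · linear_combination ((-1) * c) * h2 + (1 * c) * hω
    · linear_combination ((-1) * c) * h2 + (1 * c) * hω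
    · linear_combination ((-1) * r) * h2 + (1 * r + 1 * c) * hω
    · linear_combination ((-1) * m * c + (-1) * r) * h2 + (1 * m * c + 1 * r + 1 * c + 1) * hω
  have Z2 : Y2 = !![m * c + n + c * ω, m * c + n + c * ω, m * r + m * c * ω + m * c + n * ω + n + r * ω + s, m ^ 2 * c + m * n + m * r + m * c + n * ω + n + r * ω + s;
      n + c * ω, n + c * ω, n * ω + n + r * ω + s, m * n + m * c * ω + n * ω + n + r * ω + s;
      c, c, r + c * ω + c, m * c + r + c * ω + c;
      c, c, r + c * ω + c, m * c + r + c * ω + c] := by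
    rw [hY2, hX, hT, hD0, hD1, hD2]
    ext i j
    fin_cases i <;> fin_cases j <;> simp [Matrix.mul_apply, Fin.sum_univ_four]
    · linear_combination ((-1) * m * c + (-1) * n + (-1) * c * ω) * h2 + (1 * m * c + 1 * n + 1 * c + 1) * hω
    · linear_combination ((-1) * m * c + (-1) * n + (-1) * c * ω) * h2 + (1 * m * c + 1 * n + 1 * c + 2) * hω
    · linear_combination ((-1) * m * r + (-1) * m * c * ω + (-1) * m * c + (-1) * n * ω + (-1) * n + (-1) * r * ω + (-1) * s + (-1) * c * ω) * h2 + (1 * m * r + 2 * m * c + 2 * n + 1 * r + 1 * s + 2 * c + 2) * hω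
    · linear_combination ((-1) * m ^ 2 * c + (-1) * m * n + (-1) * m * r + (-1) * m * c * ω + (-1) * m * c + (-1) * n * ω + (-1) * n + (-1) * r * ω + (-1) * s + (-1) * c * ω) * h2 + (1 * m ^ 2 * c + 1 * m * n + 1 * m * r + 3 * m * c + 2 * n + 1 * r + 1 * s + 2 * c + 2) * hω
    · linear_combination ((-1) * n + (-1) * c * ω) * h2 + (1 * n + 1 * c) * hω
    · linear_combination ((-1) * n + (-1) * c * ω) * h2 + (1 * n + 1 * c + 1) * hω
    · linear_combination ((-1) * n * ω + (-1) * n + (-1) * r * ω + (-1) * s + (-1) * c * ω) * h2 + (2 * n + 1 * r + 1 * s + 2 * c + 2) * hω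
    · linear_combination ((-1) * m * n + (-1) * m * c * ω + (-1) * n * ω + (-1) * n + (-1) * r * ω + (-1) * s + (-1) * c * ω) * h2 + (1 * m * n + 1 * m * c + 2 * n + 1 * r + 1 * s + 2 * c + 2) * hω
    · linear_combination ((-1) * c) * h2 + (1 * c) * hω
    · linear_combination ((-1) * c) * h2 + (1 * c) * hω
    · linear_combination ((-1) * r + (-1) * c * ω + (-1) * c) * h2 + (1 * r + 2 * c + 1) * hω
    · linear_combination ((-1) * m * c + (-1) * r + (-1) * c * ω + (-1) * c) * h2 + (1 * m * c + 1 * r + 2 * c + 2) * hω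
    · linear_combination ((-1) * c) * h2 + (1 * c) * hω
    · linear_combination ((-1) * c) * h2 + (1 * c) * hω
    · linear_combination ((-1) * r + (-1) * c * ω + (-1) * c) * h2 + (1 * r + 2 * c) * hω
    · linear_combination ((-1) * m * c + (-1) * r + (-1) * c * ω + (-1) * c) * h2 + (1 * m * c + 1 * r + 2 * c + 1) * hω
  rw [Z0, Z1, Z2, hD0, hD1, hD2, hT] at E
  have F0 := congrFun (congrFun E 0) 0
  have F1 := congrFun (congrFun E 1) 0
  simp [Matrix.mul_apply, Fin.sum_univ_four] at F0 F1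
  linear_combination F0 - F1 - ((-4) * m ^ 3 * c ^ 3 + (-4) * m ^ 2 * n * c ^ 2 + (-4) * m ^ 2 * r * c ^ 2 + (-4) * m ^ 2 * c ^ 3 + (-2) * m ^ 2 * c ^ 2 + (-1) * m * n ^ 2 * c + (-1) * m * n * r * c + (-2) * m * n * c ^ 2 + (-2) * m * n * c + (-1) * m * r ^ 2 * c + (-2) * m * r * c ^ 2 + (-2) * m * r * c + (-1) * m * s * c ^ 2 + (-1) * m * c ^ 3 * ω + (-2) * m * c ^ 3 + (-2) * m * c ^ 2 * ω + (-2) * m * c ^ 2 + (-1) * c) * h2 - (2 * m * c ^ 3) * hω

end two

end Cfsg.Agent.H637.Three
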